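import Cfsg.Agent.Lib.Oval.Fix

/-! Congruences for the number of fixed points in an invariant finite set. -/

set_option autoImplicit false

namespace Cfsg.Lib.Oval

open Finset Equiv
open scoped Classical

variable {G α : Type*} [Group G] [MulAction G α] {s : Finset α} {g t : G}

/-- The permutation induced on an invariant finite set. -/
def pm (g : G) (h : ∀ x, g • x ∈ s ↔ x ∈ s) : Perm s := (MulAction.toPerm g).subtypePerm h

theorem pm_pow (h : ∀ x, g • x ∈ s ↔ x ∈ s) (n : ℕ) (x : s) : ((pm g h ^ n) x : α) = g ^ n • (x : α) := by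
  induction n with
  | zero => simp
  | succ n ih => rw [pow_succ', pow_succ', mul_smul, ← ih]; rfl

theorem pm_fix (h : ∀ x, g • x ∈ s ↔ x ∈ s) :
    Fintype.card (Function.fixedPoints (pm g h)) = #(fx g s) := by
  rw [← Fintype.card_coe]
  exact Fintype.card_congr ⟨fun x => ⟨x.1.1, mem_fx.2 ⟨x.1.2, congrArg Subtype.val x.2⟩⟩,
    fun x => ⟨⟨x.1, (mem_fx.1 x.2).1⟩, Subtype.ext (mem_fx.1 x.2).2⟩, fun _ => rfl, fun _ => rfl⟩

theorem fx_modEq (h : ∀ x, g • x ∈ s ↔ x ∈ s) {p : ℕ} (hp : p.Prime) (e : g ^ p = 1) :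
    #s ≡ #(fx g s) [MOD p] := by
  haveI := Fact.mk hp
  have := Perm.card_compl_support_modEq (σ := pm g h) (p := p) (n := 1)
    (Perm.ext fun x => Subtype.ext (by rw [pow_one, pm_pow, e, one_smul]; rfl))
  rw [Fintype.card_coe, Perm.support, compl_filter] at this
  rw [← pm_fix h, Fintype.card_subtype]
  simpa [Function.IsFixedPt] using this.symm

theorem four_of_sign (h : ∀ x, t • x ∈ s ↔ x ∈ s) (tt : t * t = 1) (e : Perm.sign (pm t h) = 1) :
    #s % 4 = #(fx t s) % 4 := by
  have k := fx_modEq h Nat.prime_two (by rwa [sq])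
  rw [Perm.sign_of_pow_two_eq_one (Perm.ext fun x => Subtype.ext (by rw [pm_pow, sq, tt, one_smul]; rfl)),
    Fintype.card_coe, pm_fix, neg_one_pow_eq_one_iff_even (by decide), Nat.even_iff] at e
  have : #(fx t s) ≤ #s := card_le_card fun x hx => (mem_fx.1 hx).1
  unfold Nat.ModEq at k
  omega

theorem four_of_sq (h : ∀ x, g • x ∈ s ↔ x ∈ s) (e : g * g * (g * g) = 1) :
    #s % 4 = #(fx (g * g) s) % 4 :=
  four_of_sign (fun x => by rw [mul_smul, h, h]) e (by
    rw [show pm (g * g) _ = pm g h * pm g h from Perm.ext fun x => Subtype.ext (mul_smul g g _), map_mul,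
      Int.units_mul_self])

theorem four_of_perfect (hG : commutator G = ⊤) (h : ∀ g : G, ∀ x ∈ s, g • x ∈ s) (tt : t * t = 1) :
    #s % 4 = #(fx t s) % 4 := by
  have h' : ∀ (g : G) x, g • x ∈ s ↔ x ∈ s := fun g x =>
    ⟨fun k => by simpa using h g⁻¹ _ k, h g x⟩
  exact four_of_sign (h' t) tt (Abelianization.commutator_subset_ker (Perm.sign.comp
    (MonoidHom.mk' (fun g => pm g (h' g)) fun a b => Perm.ext fun x => Subtype.ext (mul_smul a b _)))
    (hG ▸ Subgroup.mem_top t))

end Cfsg.Lib.Oval
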