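import Cfsg.Agent.Lib.Oval.Geo

/-! Involutory collineations of a closed subconfiguration: Baer's count and four-groups. -/

set_option autoImplicit false

namespace Cfsg.Lib.Oval

open Configuration Finset
open scoped Classical

variable {P L : Type*} [Membership P L] [Fintype P] [Fintype L] [ProjectivePlane P L]
  {G : Type*} [Group G] [MulAction G P] [MulAction G L]

theorem ar1 {m d : ℕ} (h : m + 1 ≤ 2 * d) (h2 : 2 ≤ m) (h3 : d * d ≤ m) : False := by nlinarith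

theorem ar2 {m d : ℕ} (h : m ≤ d) (h2 : 2 ≤ m) (h3 : d * d ≤ m) : False := by nlinarith

variable (L G) in
/-- `G` acts by collineations preserving `O`. -/
structure Act (O : Finset P) : Prop where
  coll : ∀ (g : G) (p : P) (l : L), g • p ∈ g • l ↔ p ∈ l
  inv : ∀ g : G, ∀ p ∈ O, g • p ∈ O

/-- The members of `A` fixed by `s`. -/
noncomputable def fx {α : Type*} [MulAction G α] (s : G) (A : Finset α) : Finset α :=
  A.filter fun a => s • a = a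

@[simp] theorem mem_fx {α : Type*} [MulAction G α] {s : G} {A : Finset α} {a : α} :
    a ∈ fx s A ↔ a ∈ A ∧ s • a = a := mem_filter

/-- `s` induces a permutation of order at most two on `A`. -/
def Iv {α : Type*} [MulAction G α] (s : G) (A : Finset α) : Prop := ∀ a ∈ A, s • a ∈ A ∧ s • s • a = a

variable {O A : Finset P} {B : Finset L} {X Y Z p q : P} {l m t : L} {s g : G}

namespace Act

variable (a : Act L G O)
include a

omit [Fintype P] [Fintype L] [ProjectivePlane P L] in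
theorem mem (g : G) (h : p ∈ l) : g • p ∈ g • l := (a.coll g p l).2 h

omit [Fintype P] [Fintype L] [ProjectivePlane P L] in
theorem mem_of (h : p ∈ l) (e : g • l = l) : g • p ∈ l := e ▸ a.mem g h

omit [Fintype P] [Fintype L] [ProjectivePlane P L] in
theorem mem_of' (h : p ∈ l) (e : g • p = p) : p ∈ g • l := e ▸ a.mem g h

omit [Fintype P] [Fintype L] [ProjectivePlane P L] in
theorem tg (h : Tg O X l) (g : G) : Tg O (g • X) (g • l) :=
  ⟨a.mem g h.1, fun Y hY k => by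
    rw [← h.2 (g⁻¹ • Y) (a.inv _ _ hY) ((a.coll g _ _).1 (by rwa [smul_inv_smul])), smul_inv_smul]⟩

omit [Fintype P] [Fintype L] in
theorem fix_line (h : p ≠ q) (h1 : p ∈ l) (h2 : q ∈ l) (e1 : g • p = p) (e2 : g • q = q) : g • l = l :=
  ln_eq h (a.mem_of' h1 e1) (a.mem_of' h2 e2) h1 h2

omit [Fintype P] [Fintype L] in
theorem fix_pt (h : l ≠ m) (h1 : p ∈ l) (h2 : p ∈ m) (e1 : g • l = l) (e2 : g • m = m) : g • p = p :=
  pt_eq h (a.mem_of h1 e1) h1 (a.mem_of h2 e2) h2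

omit [Fintype P] [Fintype L] in
theorem swap_line (h : g • p ≠ p) (h1 : p ∈ l) (h2 : g • p ∈ l) (e : g • g • p = p) : g • l = l :=
  ln_eq h (a.mem g h1) (by simpa only [e] using a.mem g h2) h2 h1

theorem fix_tg (o : Ov L O) (hX : X ∈ O) (h : Tg O X l) (e : g • X = X) : g • l = l :=
  o.tg_eq hX (e ▸ a.tg h g) h

theorem sec (o : Ov L O) (hX : X ∈ O) (hY : Y ∈ O) (h1 : X ∈ l) (h2 : Y ∈ l) (e : g • X = X)
    (e' : g • l = l) : g • Y = Y := by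
  by_cases k : X = Y
  · exact k ▸ e
  exact (o.third hX hY (a.inv g Y hY) k h1 h2 (a.mem_of h2 e')).resolve_left fun k' =>
    k (smul_left_cancel g (e.trans k'.symm))

theorem sub (h : Sub O A B) (s : G) : Sub O (fx s A) (fx s B) where
  toOv := h.toOv
  join h1 h2 ne h3 h4 := by
    rw [mem_fx] at *
    exact ⟨h.join h1.1 h2.1 ne h3 h4, a.fix_line ne h3 h4 h1.2 h2.2⟩
  meet h1 h2 ne h3 h4 := by
    rw [mem_fx] at *
    exact ⟨h.meet h1.1 h2.1 ne h3 h4, a.fix_pt ne h3 h4 h1.2 h2.2⟩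
  tang h1 h2 h3 := by
    rw [mem_fx] at *
    exact ⟨h.tang h1 h2.1 h3, a.fix_tg h.toOv h1 h3 h2.2⟩
  sec h1 h2 h3 h4 h5 h6 := by
    rw [mem_fx] at *
    exact ⟨h.sec h1 h2.1 h3.1 h4 h5 h6, a.sec h.toOv h1 h5 h4 h6 h2.2 h3.2⟩

/-- An element fixing the oval points of a subplane fixes the subplane. -/
theorem triv (h : Sub O A B) (h3 : 3 ≤ #(O ∩ A)) (e : ∀ X ∈ O ∩ A, g • X = X) (hl : l ∈ B) :
    g • l = l := by
  have e1 : O ∩ fx g A = O ∩ A := by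
    ext X; simp only [mem_inter, mem_fx]
    exact ⟨fun k => ⟨k.1, k.2.1⟩, fun k => ⟨k.1, k.2, e X (mem_inter.2 k)⟩⟩
  have k : ∀ X ∈ O ∩ A, ∀ m ∈ B, X ∈ m → g • m = m := fun X hX m hm k => by
    have := eq_of_subset_of_card_le (s := lns (fx g B) X) (t := lns B X)
      (fun x hx => by simp_all) (by rw [h.c0 hX, (a.sub h g).c0 (e1 ▸ hX), e1])
    exact (mem_fx.1 (mem_lns.1 (this.ge (mem_lns.2 ⟨hm, k⟩))).1).2
  obtain ⟨X, hX, nX⟩ := h.off h3 l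
  obtain ⟨p, hp, q, hq, ne⟩ := one_lt_card.1 (show 1 < #(pts A l) by rw [h.r1p h3 hl]; omega)
  have k2 : ∀ p ∈ pts A l, g • p = p := fun p hp => by
    obtain ⟨p1, p2⟩ := mem_pts.1 hp
    obtain ⟨m, m1, m2⟩ := ex_line (L := L) X p
    have mB := h.join (mem_inter.1 hX).2 p1 (fun k => nX (k ▸ p2)) m1 m2
    obtain ⟨Y, hY, nY⟩ := h.off h3 m
    obtain ⟨n, n1, n2⟩ := ex_line (L := L) Y p
    exact a.fix_pt (fun k => nY (k ▸ n1) : m ≠ n) m2 n2 (k X hX m mB m1)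
      (k Y hY n (h.join (mem_inter.1 hY).2 p1 (fun k => nY (k ▸ m2)) n1 n2) n1)
  exact a.fix_line ne (mem_pts.1 hp).2 (mem_pts.1 hq).2 (k2 p hp) (k2 q hq)

theorem c2 (h : Sub O A B) (i : Iv s A) (ht : t ∈ B) (nt : s • t ≠ t) (h1 : Z ∈ t) (h2 : Z ∈ s • t)
    (hZ : Z ∈ A) : #(fx s B) + 1 = #(pts A t) + #(lns (fx s B) Z) := by
  have k : #((pts A t).erase Z) = #((fx s B).filter fun m => ¬ Z ∈ m) :=
    card_eq_of_rel (fun p m => p ∈ m) (fun p hp => ?_) fun m hm => ?_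
  · have := card_filter_add_card_filter_not (s := fx s B) (Z ∈ ·)
    rw [← card_erase_add_one (mem_pts.2 ⟨hZ, h1⟩), k, ← this, lns]
    omega
  · obtain ⟨p1, p2⟩ := mem_erase.1 hp
    obtain ⟨p2, p3⟩ := mem_pts.1 p2
    have ne : s • p ≠ p := fun e => p1 (pt_eq nt (a.mem_of' p3 e) h2 p3 h1)
    obtain ⟨m, m1, m2⟩ := ex_line (L := L) p (s • p)
    have e := a.swap_line ne m1 m2 (i p p2).2
    exact ⟨m, ⟨mem_filter.2 ⟨mem_fx.2 ⟨h.join p2 (i p p2).1 ne.symm m1 m2, e⟩, fun k =>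
      nt (ln_eq p1 m1 k p3 h1 ▸ e)⟩, m1⟩, fun m' k =>
      ln_eq ne (a.mem_of k.2 (mem_fx.1 (mem_filter.1 k.1).1).2) k.2 m2 m1⟩
  · obtain ⟨m1, m2⟩ := mem_filter.1 hm
    obtain ⟨m1, m3⟩ := mem_fx.1 m1
    have ne : t ≠ m := fun e => m2 (e ▸ h1)
    obtain ⟨p, p1, p2⟩ := ex_point (P := P) ne
    exact ⟨p, ⟨mem_erase.2 ⟨fun e => m2 (e ▸ p2), mem_pts.2 ⟨h.meet ht m1 ne p1 p2, p1⟩⟩, p2⟩,
      fun p' k => pt_eq ne (mem_pts.1 (mem_erase.1 k.1).2).2 p1 k.2 p2⟩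

/-- The basic count for an involution. -/
theorem key (h : Sub O A B) {u : ℕ} (u2 : 2 ≤ u) (hp : ∀ l ∈ B, #(pts A l) = u + 1)
    (hl : ∀ Z ∈ A, #(lns B Z) = u + 1) (i : Iv s A) (j : Iv s B) (hX : X ∈ O ∩ A) (nX : s • X ≠ X) :
    ∃ d, #(fx s B) = u + d + 1 ∧ d * d ≤ u ∧
      ((∀ Z ∈ fx s A, ∃ m ∈ B, Z ∈ m ∧ s • m ≠ m) → u = d * d) ∧
      ((O ∩ fx s A).Nonempty → #(O ∩ fx s A) = d + 1) := by
  obtain ⟨X1, X2⟩ := mem_inter.1 hX
  have h' := a.sub h s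
  obtain ⟨l, l1, l2⟩ := ex_line (L := L) X (s • X)
  have lB : l ∈ fx s B :=
    mem_fx.2 ⟨h.join X2 (i X X2).1 nX.symm l1 l2, a.swap_line nX l1 l2 (i X X2).2⟩
  obtain ⟨t, t1, -⟩ := h.tg X1
  have tB := h.tang X1 X2 t1
  have nt : s • t ≠ t := fun e => nX (t1.2 _ (a.inv s X X1) (a.mem_of t1.1 e))
  obtain ⟨E, E1, E2⟩ := ex_point (P := P) nt
  have EA := h.meet (j t tB).1 tB nt E1 E2
  have EF : E ∈ fx s A := mem_fx.2 ⟨EA, pt_eq nt (a.mem s E2) E1 ((j t tB).2 ▸ a.mem s E1) E2⟩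
  have El : E ∉ l := fun k => by
    have ne : E ≠ X := fun e => nX (e ▸ (mem_fx.1 EF).2)
    exact nt (ln_eq ne k l1 E2 t1.1 ▸ (mem_fx.1 lB).2)
  have c1 := h'.c1 EF lB El
  have c2 := a.c2 h i tB nt E2 E1 EA
  have c3 := h'.c3 lB
  have sb : ∀ Z, #(lns (fx s B) Z) ≤ #(lns B Z) := fun Z => card_le_card fun x hx => by simp_all
  have cz : ∀ Z ∈ fx s A, (∃ m ∈ B, Z ∈ m ∧ s • m ≠ m) → #(lns (fx s B) Z) = #(lns (fx s B) E) :=
    fun Z hZ ⟨m, m1, m2, m3⟩ => by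
    have := a.c2 h i m1 m3 m2 (a.mem_of' m2 (mem_fx.1 hZ).2) (mem_fx.1 hZ).1
    rw [hp m m1] at this
    rw [hp t tB] at c2
    omega
  have cz' : ∀ Z ∈ fx s A, #(lns (fx s B) E) ≤ #(lns (fx s B) Z) := fun Z hZ => by
    by_cases k : ∃ m ∈ B, Z ∈ m ∧ s • m ≠ m
    · exact (cz Z hZ k).ge
    push Not at k
    refine (sb E).trans ((hl E EA).trans (hl Z (mem_fx.1 hZ).1).symm ▸ card_le_card fun x hx => ?_)
    rw [mem_lns] at hx ⊢
    exact ⟨mem_fx.2 ⟨hx.1, k x hx.1 hx.2⟩, hx.2⟩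
  rw [hp t tB] at c2
  have lo := card_nsmul_le_sum (pts (fx s A) l) (fun Z => #(lns (fx s B) Z) - 1)
    (#(lns (fx s B) E) - 1) fun Z hZ => Nat.sub_le_sub_right (cz' Z (mem_pts.1 hZ).1) 1
  have c0 : #(lns (fx s B) E) ≠ 0 := fun e => by
    rw [card_eq_zero.1 (c1.trans e), sum_empty] at c3
    omega
  obtain ⟨d, hd⟩ := Nat.exists_eq_succ_of_ne_zero c0
  rw [c1, hd, smul_eq_mul, Nat.succ_sub_one] at lo
  refine ⟨d, by omega, by nlinarith, fun k => ?_, fun ⟨Y, hY⟩ => ?_⟩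
  · rw [sum_congr rfl fun Z hZ => by rw [cz Z (mem_pts.1 hZ).1 (k Z (mem_pts.1 hZ).1)], sum_const,
      c1, hd, smul_eq_mul, Nat.succ_sub_one] at c3
    nlinarith
  · obtain ⟨Y1, Y2⟩ := mem_inter.1 hY
    rw [← h'.c0 hY, ← h'.c1 Y2 lB fun k => ?_, c1, hd]
    rcases h.third X1 (a.inv s X X1) Y1 nX.symm l1 l2 k with e | e
    · exact nX (e ▸ (mem_fx.1 Y2).2)
    · exact nX (smul_left_cancel s (e ▸ (mem_fx.1 Y2).2))

/-- Baer's count. -/
theorem baer (h : Sub O A B) (i : Iv s A) (j : Iv s B) (hX : X ∈ O ∩ A) (nX : s • X ≠ X)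
    (h3 : 3 ≤ #(O ∩ fx s A)) : ∃ d, #(O ∩ A) = d * d + 1 ∧ #(O ∩ fx s A) = d + 1 := by
  have lt : #(O ∩ fx s A) < #(O ∩ A) := card_lt_card ⟨fun x hx => by simp_all, fun k => by
    have := k hX; simp_all⟩
  obtain ⟨u, hu⟩ : ∃ u, #(O ∩ A) = u + 1 := ⟨#(O ∩ A) - 1, by omega⟩
  obtain ⟨d, -, -, k1, k2⟩ := a.key h (u := u) (by omega) (fun l hl => hu ▸ h.r1p (by omega) hl)
    (fun Z hZ => hu ▸ h.r1l (by omega) hZ) i j hX nX
  refine ⟨d, hu.trans (congrArg (· + 1) (k1 fun Z hZ => by_contra fun k => ?_)),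
    k2 (card_pos.1 (by omega))⟩
  push Not at k
  have := card_le_card (s := lns B Z) (t := lns (fx s B) Z) fun x hx => by
    rw [mem_lns] at hx ⊢
    exact ⟨mem_fx.2 ⟨hx.1, k x hx.1 hx.2⟩, hx.2⟩
  rw [(a.sub h s).r1l h3 hZ, h.r1l (by omega) (mem_fx.1 hZ).1] at this
  omega

omit [Fintype P] [Fintype L] in
theorem pair_line (h : p ≠ q) (h1 : p ∈ l) (h2 : q ∈ l) (e1 : g • p ∈ l) (e2 : g • q ∈ l) : g • l = l :=
  ln_eq (fun e => h (smul_left_cancel g e)) (a.mem g h1) (a.mem g h2) e1 e2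

/-- Three commuting Baer involutions do not form a four-group. -/
theorem four (h : Sub O A B) {r : G} (is : Iv s A) (js : Iv s B) (ir : Iv r A) (jr : Iv r B)
    (cA : ∀ p ∈ A, s • r • p = r • s • p) (cB : ∀ p ∈ B, s • r • p = r • s • p)
    (f1 : 3 ≤ #(O ∩ fx s A)) (f2 : 3 ≤ #(O ∩ fx r A)) (f3 : 3 ≤ #(O ∩ fx (s * r) A))
    (m1 : ∃ X ∈ O ∩ A, s • X ≠ X) (m2 : ∃ X ∈ O ∩ A, r • X ≠ X) (m3 : ∃ X ∈ O ∩ A, (s * r) • X ≠ X) :
    False := by
  obtain ⟨X, X1, X2⟩ := m1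
  obtain ⟨_, Y1, Y2⟩ := m2
  obtain ⟨_, Z1, Z2⟩ := m3
  obtain ⟨m, e, e1⟩ := a.baer h is js X1 X2 f1
  obtain ⟨m2, e', e2⟩ := a.baer h ir jr Y1 Y2 f2
  obtain ⟨m3, e'', e3⟩ := a.baer (s := s * r) h (fun p hp => ⟨by simpa [mul_smul] using (is _ (ir p hp).1).1,
    by rw [mul_smul, mul_smul, ← cA _ (ir p hp).1, (ir p hp).2, (is p hp).2]⟩)
    (fun p hp => ⟨by simpa [mul_smul] using (js _ (jr p hp).1).1,
    by rw [mul_smul, mul_smul, ← cB _ (jr p hp).1, (jr p hp).2, (js p hp).2]⟩) Z1 Z2 f3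
  obtain rfl : m = m2 := Nat.mul_self_inj.1 (by omega)
  obtain rfl : m = m3 := Nat.mul_self_inj.1 (by omega)
  have h1 := a.sub h s
  have hW := a.sub h1 r
  by_cases c : ∀ X ∈ O ∩ fx s A, r • X = X
  · obtain ⟨l, l1, l2⟩ := ex_line (L := L) X (s • X)
    obtain ⟨X3, X4⟩ := mem_inter.1 X1
    have k := a.triv h1 f1 c
      (mem_fx.2 ⟨h.join X4 (is X X4).1 X2.symm l1 l2, a.swap_line X2 l1 l2 (is X X4).2⟩)
    have k2 := eq_of_subset_of_card_le (s := O ∩ fx s A) (t := O ∩ fx r A)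
      (fun x hx => by have := c x hx; rw [mem_inter, mem_fx] at hx ⊢; exact ⟨hx.1, hx.2.1, this⟩) (by omega)
    have k3 := eq_of_subset_of_card_le (s := O ∩ fx s A) (t := O ∩ fx (s * r) A)
      (fun x hx => by
        have := c x hx; rw [mem_inter, mem_fx] at hx ⊢
        exact ⟨hx.1, hx.2.1, by rw [mul_smul, this, hx.2.2]⟩) (by omega)
    refine X2 (mem_fx.1 (mem_inter.1 (?_ : X ∈ O ∩ fx s A)).2).2
    rcases h.third X3 (a.inv s X X3) (a.inv r X X3) X2.symm l1 l2 (a.mem_of l1 k) with e | e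
    · exact k2 ▸ mem_inter.2 ⟨X3, mem_fx.2 ⟨X4, e⟩⟩
    · exact k3 ▸ mem_inter.2 ⟨X3, mem_fx.2 ⟨X4, by rw [mul_smul, e, (is X X4).2]⟩⟩
  push Not at c
  obtain ⟨X0, c1, c2⟩ := c
  obtain ⟨d, k1, k2, -, k3⟩ := a.key (s := r) h1 (u := m) (by omega) (fun l hl => e1 ▸ h1.r1p f1 hl)
    (fun l hl => e1 ▸ h1.r1l f1 hl) (fun p hp => by
      rw [mem_fx] at hp ⊢; exact ⟨⟨(ir p hp.1).1, by rw [cA p hp.1, hp.2]⟩, (ir p hp.1).2⟩) (fun p hp => by
      rw [mem_fx] at hp ⊢; exact ⟨⟨(jr p hp.1).1, by rw [cB p hp.1, hp.2]⟩, (jr p hp.1).2⟩) c1 c2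
  set W := O ∩ fx r (fx s A) with eW
  have mW : ∀ x, x ∈ W ↔ x ∈ O ∧ x ∈ A ∧ s • x = x ∧ r • x = x := fun x => by simp [eW, and_assoc]
  have t1 := card_sdiff_add_card_eq_card (s := W) (t := O ∩ fx s A) fun x hx => by
    rw [mW] at hx; simp [hx]
  have t2 := card_sdiff_add_card_eq_card (s := W) (t := O ∩ fx r A) fun x hx => by
    rw [mW] at hx; simp [hx]
  have t3 := card_sdiff_add_card_eq_card (s := W) (t := O ∩ fx (s * r) A) fun x hx => by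
    rw [mW] at hx; simp [hx, mul_smul]
  have d1 : Disjoint ((O ∩ fx s A) \ W) ((O ∩ fx r A) \ W) := disjoint_left.2 fun x h1 h2 => by
    simp only [mem_sdiff, mem_inter, mem_fx, mW] at h1 h2
    exact h1.2 ⟨h1.1.1, h1.1.2.1, h1.1.2.2, h2.1.2.2⟩
  have d2 : Disjoint ((O ∩ fx s A) \ W ∪ (O ∩ fx r A) \ W) ((O ∩ fx (s * r) A) \ W) :=
    disjoint_left.2 fun x h1 h2 => by
      simp only [mem_union, mem_sdiff, mem_inter, mem_fx, mW, mul_smul] at h1 h2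
      rcases h1 with h1 | h1
      · exact h2.2 ⟨h1.1.1, h1.1.2.1, h1.1.2.2, smul_left_cancel s (h2.1.2.2.trans h1.1.2.2.symm)⟩
      · exact h2.2 ⟨h1.1.1, h1.1.2.1, by simpa only [h1.1.2.2] using h2.1.2.2, h1.1.2.2⟩
  have cnt := card_mul_le_card_mul (s := (O ∩ fx s A) \ W ∪ (O ∩ fx r A) \ W ∪ (O ∩ fx (s * r) A) \ W)
    (t := (fx r (fx s B)).filter fun l => ¬ ∃ p ∈ W, p ∈ l) (fun p l => p ∈ l) (m := 1) (n := 2)
    (fun x hx => ?_) fun l _ => h.le_two (l := l) fun x hx => by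
      rw [mem_bipartiteBelow] at hx
      exact ⟨by have := hx.1; simp only [mem_union, mem_sdiff, mem_inter] at this; tauto, hx.2⟩
  · rw [card_union_of_disjoint d2, card_union_of_disjoint d1] at cnt
    have sp := card_filter_add_card_filter_not (s := fx r (fx s B)) fun l => ∃ p ∈ W, p ∈ l
    rcases W.eq_empty_or_nonempty with e | ⟨p, hp⟩
    · have : #W = 0 := by rw [e, card_empty]
      exact ar1 (by omega) (by omega) k2
    have k4 := k3 ⟨p, hp⟩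
    have sb : ∀ q ∈ W, #(lns (fx r (fx s B)) p ∪ lns (fx r (fx s B)) q) ≤
        #((fx r (fx s B)).filter fun l => ∃ p ∈ W, p ∈ l) := fun q hq => card_le_card fun l hl => by
      rcases mem_union.1 hl with k | k
      exacts [mem_filter.2 ⟨(mem_lns.1 k).1, p, hp, (mem_lns.1 k).2⟩,
        mem_filter.2 ⟨(mem_lns.1 k).1, q, hq, (mem_lns.1 k).2⟩]
    rcases d with _ | d
    · have := sb p hp
      rw [union_self, hW.c0 hp, ← eW] at this
      omega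
    obtain ⟨q, hq, ne⟩ := exists_mem_ne (show 1 < #W by omega) p
    have k5 := card_union_add_card_inter (lns (fx r (fx s B)) p) (lns (fx r (fx s B)) q)
    have k6 : #(lns (fx r (fx s B)) p ∩ lns (fx r (fx s B)) q) ≤ 1 := card_le_one.2 fun x hx y hy => by
      simp only [mem_inter, mem_lns] at hx hy
      exact ln_eq ne hx.2.2 hx.1.2 hy.2.2 hy.1.2
    rw [hW.c0 hp, hW.c0 hq, ← eW] at k5
    have := sb q hq
    exact ar2 (by omega) (by omega) k2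
  · have k : ∀ g : G, x ∈ O → x ∈ A → x ∉ W → g • x ≠ x → g • x ∈ A → (s • x = x ∨ s • x = g • x) →
        (s • g • x = x ∨ s • g • x = g • x) → (r • x = x ∨ r • x = g • x) →
        (r • g • x = x ∨ r • g • x = g • x) → (s • g • x = g • x → r • g • x ≠ g • x) →
        1 ≤ #(bipartiteAbove (fun p l => p ∈ l) ((fx r (fx s B)).filter fun l => ¬ ∃ p ∈ W, p ∈ l) x) :=
      fun g x1 x2 x3 n1 n2 n3 n4 n5 n6 n7 => by
      obtain ⟨l, l1, l2⟩ := ex_line (L := L) x (g • x)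
      have k : ∀ {y}, y = x ∨ y = g • x → y ∈ l := fun k => k.elim (· ▸ l1) (· ▸ l2)
      refine card_pos.2 ⟨l, (mem_bipartiteAbove _).2 ⟨mem_filter.2 ⟨mem_fx.2 ⟨mem_fx.2
        ⟨h.join x2 n2 n1.symm l1 l2, a.pair_line n1.symm l1 l2 (k n3) (k n4)⟩,
        a.pair_line n1.symm l1 l2 (k n5) (k n6)⟩, fun ⟨p, p1, p2⟩ => ?_⟩, l1⟩⟩
      rcases h.third x1 (a.inv g x x1) ((mW p).1 p1).1 n1.symm l1 l2 p2 with rfl | rfl
      exacts [x3 p1, n7 ((mW _).1 p1).2.2.1 ((mW _).1 p1).2.2.2]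
    simp only [mem_union, mem_sdiff, mem_inter, mem_fx, mul_smul] at hx
    rcases hx with (⟨⟨x1, x2, x3⟩, x4⟩ | ⟨⟨x1, x2, x3⟩, x4⟩) | ⟨⟨x1, x2, x3⟩, x4⟩
    · have n : r • x ≠ x := fun e => x4 ((mW x).2 ⟨x1, x2, x3, e⟩)
      exact k r x1 x2 x4 n (ir x x2).1 (.inl x3) (.inr (by rw [cA x x2, x3])) (.inr rfl)
        (.inl (ir x x2).2) fun _ e => n (smul_left_cancel r e)
    · have n : s • x ≠ x := fun e => x4 ((mW x).2 ⟨x1, x2, e, x3⟩)
      exact k s x1 x2 x4 n (is x x2).1 (.inr rfl) (.inl (is x x2).2) (.inl x3)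
        (.inr (by rw [← cA x x2, x3])) fun e _ => n (smul_left_cancel s e)
    · have x5 : r • x = s • x := smul_left_cancel s (x3.trans (is x x2).2.symm)
      have n : s • x ≠ x := fun e => x4 ((mW x).2 ⟨x1, x2, e, x5.trans e⟩)
      exact k s x1 x2 x4 n (is x x2).1 (.inr rfl) (.inl (is x x2).2) (.inr x5)
        (.inl (by rw [← cA x x2, x3])) fun e _ => n (smul_left_cancel s e)

end Act

end Cfsg.Lib.Oval
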