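import Mathlib

/-! Ovals in finite projective planes: closed subconfigurations and counting. -/

set_option autoImplicit false

namespace Cfsg.Lib.Oval

open Configuration Finset
open scoped Classical

theorem card_eq_of_rel {α β : Type*} {s : Finset α} {t : Finset β} (r : α → β → Prop)
    (h1 : ∀ a ∈ s, ∃ b, (b ∈ t ∧ r a b) ∧ ∀ b', b' ∈ t ∧ r a b' → b' = b)
    (h2 : ∀ b ∈ t, ∃ a, (a ∈ s ∧ r a b) ∧ ∀ a', a' ∈ s ∧ r a' b → a' = a) : #s = #t := by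
  have := card_mul_eq_card_mul (s := s) (t := t) r (m := 1) (n := 1) (fun a ha => ?_) fun b hb => ?_
  · simpa using this
  · obtain ⟨b, h, k⟩ := h1 a ha
    exact card_eq_one.2 ⟨b, eq_singleton_iff_unique_mem.2 ⟨by simpa using h, fun x hx => k x (by simpa using hx)⟩⟩
  · obtain ⟨a, h, k⟩ := h2 b hb
    exact card_eq_one.2 ⟨a, eq_singleton_iff_unique_mem.2 ⟨by simpa using h, fun x hx => k x (by simpa using hx)⟩⟩

variable {P L : Type*} [Membership P L] [Fintype P] [Fintype L] [ProjectivePlane P L]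

omit [Fintype P] [Fintype L] in
theorem ex_line (p q : P) : ∃ l : L, p ∈ l ∧ q ∈ l := by
  by_cases h : p = q
  · obtain ⟨r, hr⟩ : ∃ r : P, r ≠ p := by
      obtain ⟨p₁, p₂, -, l₁, l₂, -, h1, -, -, h2, -⟩ := ProjectivePlane.exists_config (P := P) (L := L)
      by_cases e : p₁ = p
      · exact ⟨p₂, fun e' => h1 (by rw [e, ← e']; exact h2)⟩
      · exact ⟨p₁, e⟩
    exact ⟨_, (HasLines.mkLine_ax hr).2, h ▸ (HasLines.mkLine_ax hr).2⟩
  · exact ⟨_, HasLines.mkLine_ax h⟩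

omit [Fintype P] [Fintype L] in
theorem ex_point {l m : L} (h : l ≠ m) : ∃ p : P, p ∈ l ∧ p ∈ m := ⟨_, HasPoints.mkPoint_ax h⟩

omit [Fintype P] [Fintype L] in
theorem ln_eq {p q : P} {l m : L} (h : p ≠ q) (h1 : p ∈ l) (h2 : q ∈ l) (h3 : p ∈ m) (h4 : q ∈ m) :
    l = m := (Nondegenerate.eq_or_eq h1 h2 h3 h4).resolve_left h

omit [Fintype P] [Fintype L] in
theorem pt_eq {p q : P} {l m : L} (h : l ≠ m) (h1 : p ∈ l) (h2 : q ∈ l) (h3 : p ∈ m) (h4 : q ∈ m) :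
    p = q := (Nondegenerate.eq_or_eq h1 h2 h3 h4).resolve_right h

/-- The points of `A` on `l`. -/
noncomputable def pts (A : Finset P) (l : L) : Finset P := A.filter (· ∈ l)

/-- The lines of `B` through `p`. -/
noncomputable def lns (B : Finset L) (p : P) : Finset L := B.filter (p ∈ ·)

omit [Fintype P] [Fintype L] [ProjectivePlane P L] in
@[simp] theorem mem_pts {A : Finset P} {l : L} {p : P} : p ∈ pts A l ↔ p ∈ A ∧ p ∈ l := mem_filter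

omit [Fintype P] [Fintype L] [ProjectivePlane P L] in
@[simp] theorem mem_lns {B : Finset L} {l : L} {p : P} : l ∈ lns B p ↔ l ∈ B ∧ p ∈ l := mem_filter

theorem card_pts (l : L) : #(pts (univ : Finset P) l) = ProjectivePlane.order P L + 1 := by
  rw [← ProjectivePlane.pointCount_eq P l, pointCount, Nat.card_eq_fintype_card, Fintype.card_subtype]
  rfl

theorem card_lns (p : P) : #(lns (univ : Finset L) p) = ProjectivePlane.order P L + 1 := by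
  rw [← ProjectivePlane.lineCount_eq L p, lineCount, Nat.card_eq_fintype_card, Fintype.card_subtype]
  rfl

/-- `l` is tangent to `O` at `X`. -/
def Tg (O : Finset P) (X : P) (l : L) : Prop := X ∈ l ∧ ∀ Y ∈ O, Y ∈ l → Y = X

variable (L) in
/-- `O` is an oval. -/
structure Ov (O : Finset P) : Prop where
  card : #O = ProjectivePlane.order P L + 1
  arc : ∀ l : L, ∀ p ∈ O, ∀ q ∈ O, ∀ r ∈ O, p ∈ l → q ∈ l → r ∈ l → p = q ∨ p = r ∨ q = r

variable {O A : Finset P} {B : Finset L} {X Y Z : P} {l m : L}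

theorem Ov.third (o : Ov L O) (hX : X ∈ O) (hY : Y ∈ O) (hZ : Z ∈ O) (h : X ≠ Y) (h1 : X ∈ l)
    (h2 : Y ∈ l) (h3 : Z ∈ l) : Z = X ∨ Z = Y := by
  rcases o.arc l X hX Y hY Z hZ h1 h2 h3 with e | e | e
  exacts [(h e).elim, .inl e.symm, .inr e.symm]

theorem Ov.le_two (o : Ov L O) {s : Finset P} (h : ∀ X ∈ s, X ∈ O ∧ X ∈ l) : #s ≤ 2 := by
  by_contra k
  obtain ⟨a, b, c, ha, hb, hc, h1, h2, h3⟩ := two_lt_card_iff.1 (not_le.1 k)
  rcases o.arc l a (h a ha).1 b (h b hb).1 c (h c hc).1 (h a ha).2 (h b hb).2 (h c hc).2 with e | e | e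
  exacts [h1 e, h2 e, h3 e]

theorem Ov.tg (o : Ov L O) (hX : X ∈ O) : ∃ l : L, Tg O X l ∧ ∀ m : L, Tg O X m → m = l := by
  have k : #(O.erase X) = #((lns univ X).filter fun l : L => ¬ Tg O X l) :=
    card_eq_of_rel (fun Y l => Y ∈ l) (fun Y hY => ?_) fun l hl => ?_
  · have k2 := card_filter_add_card_filter_not (s := lns (univ : Finset L) X) (Tg O X)
    rw [← k, card_erase_of_mem hX, o.card, card_lns] at k2
    obtain ⟨l, hl⟩ := card_eq_one.1 (by omega : #((lns (univ : Finset L) X).filter (Tg O X)) = 1)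
    refine ⟨l, (mem_filter.1 (hl.ge (mem_singleton_self l))).2, fun m hm => mem_singleton.1 (hl.le ?_)⟩
    simpa using ⟨hm.1, hm⟩
  · obtain ⟨h1, h2⟩ := mem_erase.1 hY
    obtain ⟨l, h3, h4⟩ := ex_line (L := L) X Y
    exact ⟨l, ⟨by simpa using ⟨h3, fun k => h1 (k.2 Y h2 h4)⟩, h4⟩, fun m hm =>
      ln_eq h1 hm.2 (mem_lns.1 (mem_filter.1 hm.1).1).2 h4 h3⟩
  · obtain ⟨h1, h2⟩ := mem_filter.1 hl
    have h1 := (mem_lns.1 h1).2
    simp only [Tg, h1, true_and, not_forall] at h2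
    obtain ⟨Y, h2, h3, h4⟩ := h2
    exact ⟨Y, ⟨mem_erase.2 ⟨h4, h2⟩, h3⟩, fun Z hZ => (o.third hX h2 (mem_erase.1 hZ.1).2 (Ne.symm h4)
      h1 h3 hZ.2).resolve_left (mem_erase.1 hZ.1).1⟩

theorem Ov.tg_eq (o : Ov L O) (hX : X ∈ O) (h1 : Tg O X l) (h2 : Tg O X m) : l = m :=
  let ⟨_, _, k⟩ := o.tg hX; (k l h1).trans (k m h2).symm

/-- A closed subconfiguration compatible with the oval. -/
structure Sub (O A : Finset P) (B : Finset L) : Prop extends Ov L O where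
  join : ∀ {p q : P} {l : L}, p ∈ A → q ∈ A → p ≠ q → p ∈ l → q ∈ l → l ∈ B
  meet : ∀ {p : P} {l m : L}, l ∈ B → m ∈ B → l ≠ m → p ∈ l → p ∈ m → p ∈ A
  tang : ∀ {X : P} {l : L}, X ∈ O → X ∈ A → Tg O X l → l ∈ B
  sec : ∀ {X Y : P} {l : L}, X ∈ O → X ∈ A → l ∈ B → X ∈ l → Y ∈ O → Y ∈ l → Y ∈ A

theorem Ov.sub (o : Ov L O) : Sub O univ (univ : Finset L) :=
  ⟨o, by simp, by simp, by simp, by simp⟩

namespace Sub

variable (h : Sub O A B)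
include h

theorem c1 (hZ : Z ∈ A) (hl : l ∈ B) (hn : Z ∉ l) : #(pts A l) = #(lns B Z) := by
  refine card_eq_of_rel (fun p m => p ∈ m) (fun p hp => ?_) fun m hm => ?_
  · obtain ⟨h1, h2⟩ := mem_pts.1 hp
    have ne : Z ≠ p := fun e => hn (e ▸ h2)
    obtain ⟨m, h3, h4⟩ := ex_line (L := L) Z p
    exact ⟨m, ⟨mem_lns.2 ⟨h.join hZ h1 ne h3 h4, h3⟩, h4⟩, fun m' k =>
      ln_eq ne (mem_lns.1 k.1).2 k.2 h3 h4⟩
  · obtain ⟨h1, h2⟩ := mem_lns.1 hm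
    have ne : l ≠ m := fun e => hn (e ▸ h2)
    obtain ⟨p, h3, h4⟩ := ex_point (P := P) ne
    exact ⟨p, ⟨mem_pts.2 ⟨h.meet hl h1 ne h3 h4, h3⟩, h4⟩, fun p' k =>
      pt_eq ne (mem_pts.1 k.1).2 h3 k.2 h4⟩

theorem c0 (hX : X ∈ O ∩ A) : #(lns B X) = #(O ∩ A) := by
  obtain ⟨h1, h2⟩ := mem_inter.1 hX
  refine (card_eq_of_rel (fun Y m => Y ∈ m ∧ (Y = X → Tg O X m)) (fun Y hY => ?_) fun m hm => ?_).symm
  · by_cases e : Y = X
    · subst e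
      obtain ⟨t, k1, k2⟩ := h.tg h1
      exact ⟨t, ⟨mem_lns.2 ⟨h.tang h1 h2 k1, k1.1⟩, k1.1, fun _ => k1⟩, fun m k => k2 m (k.2.2 rfl)⟩
    · obtain ⟨m, h3, h4⟩ := ex_line (L := L) Y X
      exact ⟨m, ⟨mem_lns.2 ⟨h.join (mem_inter.1 hY).2 h2 e h3 h4, h4⟩, h3, fun k => (e k).elim⟩,
        fun m' k => ln_eq e k.2.1 (mem_lns.1 k.1).2 h3 h4⟩
  · obtain ⟨h3, h4⟩ := mem_lns.1 hm
    by_cases e : Tg O X m
    · exact ⟨X, ⟨hX, h4, fun _ => e⟩, fun Y k => e.2 Y (mem_inter.1 k.1).1 k.2.1⟩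
    · have e' := e
      simp only [Tg, h4, true_and, not_forall] at e'
      obtain ⟨Y, k2, k3, k4⟩ := e'
      exact ⟨Y, ⟨mem_inter.2 ⟨k2, h.sec h1 h2 h3 h4 k2 k3⟩, k3, fun k => (k4 k).elim⟩, fun Z k =>
        (h.third h1 k2 (mem_inter.1 k.1).1 (Ne.symm k4) h4 k3 k.2.1).resolve_left fun k' => e (k.2.2 k')⟩

theorem off (h3 : 3 ≤ #(O ∩ A)) (l : L) : ∃ X ∈ O ∩ A, X ∉ l := by
  by_contra! k
  have := h.le_two (l := l) (s := O ∩ A) fun X hX => ⟨(mem_inter.1 hX).1, k X hX⟩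
  omega

theorem r1p (h3 : 3 ≤ #(O ∩ A)) (hl : l ∈ B) : #(pts A l) = #(O ∩ A) :=
  let ⟨_, h1, h2⟩ := h.off h3 l; (h.c1 (mem_inter.1 h1).2 hl h2).trans (h.c0 h1)

theorem r1l (h3 : 3 ≤ #(O ∩ A)) (hZ : Z ∈ A) : #(lns B Z) = #(O ∩ A) := by
  obtain ⟨a, b, c, ha, hb, hc, h1, h2, h4⟩ := two_lt_card_iff.1 (show 2 < #(O ∩ A) from h3)
  obtain ⟨l, l1, l2⟩ := ex_line (L := L) a b
  obtain ⟨m, m1, m2⟩ := ex_line (L := L) a c
  obtain ⟨n, n1, n2⟩ := ex_line (L := L) b c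
  rw [mem_inter] at ha hb hc
  have k : ∀ l ∈ B, Z ∉ l → #(lns B Z) = #(O ∩ A) := fun l hl k =>
    (h.c1 hZ hl k).symm.trans (h.r1p h3 hl)
  by_contra e
  have k1 : Z ∈ l := by_contra fun k' => e (k l (h.join ha.2 hb.2 h1 l1 l2) k')
  have k2 : Z ∈ m := by_contra fun k' => e (k m (h.join ha.2 hc.2 h2 m1 m2) k')
  have k3 : Z ∈ n := by_contra fun k' => e (k n (h.join hb.2 hc.2 h4 n1 n2) k')
  have k4 : l ≠ m := fun e => (h.third ha.1 hb.1 hc.1 h1 l1 l2 (e ▸ m2)).elim h2.symm h4.symm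
  obtain rfl := pt_eq k4 k1 l1 k2 m1
  exact (h.third hb.1 hc.1 ha.1 h4 n1 n2 k3).elim h1 h2

theorem c3 (hl : l ∈ B) : #B = 1 + ∑ Z ∈ pts A l, (#(lns B Z) - 1) := by
  have : B.erase l = (pts A l).biUnion fun Z => (lns B Z).erase l := by
    ext m
    simp only [mem_erase, mem_biUnion, mem_pts, mem_lns]
    refine ⟨fun ⟨k1, k2⟩ => ?_, fun ⟨_, _, k1, k2, _⟩ => ⟨k1, k2⟩⟩
    obtain ⟨p, k3, k4⟩ := ex_point (P := P) k1
    exact ⟨p, ⟨h.meet k2 hl k1 k3 k4, k4⟩, k1, k2, k3⟩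
  rw [← card_erase_add_one hl, this, card_biUnion, add_comm]
  · congr 1
    exact sum_congr rfl fun Z hZ => card_erase_of_mem (mem_lns.2 ⟨hl, (mem_pts.1 hZ).2⟩)
  · intro p hp q hq ne
    refine disjoint_left.2 fun m k1 k2 => ?_
    rw [mem_erase, mem_lns] at k1 k2
    exact k1.1 (ln_eq ne k1.2.2 k2.2.2 (mem_pts.1 hp).2 (mem_pts.1 hq).2)

end Sub

end Cfsg.Lib.Oval
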