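import Cfsg.Agent.Lib.Oval.Cnt

/-! Homologies preserving an oval in a plane of odd order. -/

set_option autoImplicit false

namespace Cfsg.Lib.Oval

open Configuration Finset
open scoped Classical

variable {P L : Type*} [Membership P L] [Fintype P] [Fintype L] [ProjectivePlane P L]
  {G : Type*} [Group G] [MulAction G P] [MulAction G L]

variable (L G) in
/-- A faithful collineation group preserving an oval in a plane of odd order. -/
structure St (O : Finset P) : Prop extends Ov L O, Act L G O where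
  odd : Odd (ProjectivePlane.order P L)
  faith : ∀ g : G, (∀ p : P, g • p = p) → g = 1

variable (L) in
/-- `A` is a centre of `t`. -/
def Ctr (t : G) (A : P) : Prop := ∀ l : L, A ∈ l → t • l = l

variable {O : Finset P} {A A' X Y Z p q : P} {l m : L} {s t g x b : G}

theorem two_le_order : 2 ≤ ProjectivePlane.order P L := ProjectivePlane.one_lt_order P L

theorem ex_pt (l : L) (p q : P) : ∃ r : P, r ∈ l ∧ r ≠ p ∧ r ≠ q := by
  by_contra! k
  have := card_le_card (s := pts (univ : Finset P) l) (t := {p, q}) fun r hr => by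
    by_cases e : r = p
    exacts [by simp [e], by simp [k r (mem_pts.1 hr).2 e]]
  have := card_le_two (a := p) (b := q)
  have := card_pts (P := P) l
  have := two_le_order (P := P) (L := L)
  omega

theorem ex_ln (p : P) (l m : L) : ∃ r : L, p ∈ r ∧ r ≠ l ∧ r ≠ m := by
  by_contra! k
  have := card_le_card (s := lns (univ : Finset L) p) (t := {l, m}) fun r hr => by
    by_cases e : r = l
    exacts [by simp [e], by simp [k r (mem_lns.1 hr).2 e]]
  have := card_le_two (a := l) (b := m)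
  have := card_lns (L := L) p
  have := two_le_order (P := P) (L := L)
  omega

namespace St

variable (h : St L G O)
include h

theorem one_of_lines (e : ∀ l : L, g • l = l) : g = 1 := h.faith g fun p => by
  obtain ⟨l, l1, -⟩ := ex_line (L := L) p p
  obtain ⟨m, m1, m2, -⟩ := ex_ln p l l
  exact h.fix_pt m2 m1 l1 (e m) (e l)

theorem three : 3 ≤ #(O ∩ univ) := by
  have := two_le_order (P := P) (L := L)
  rw [inter_univ, h.card]; omega

theorem one_of_O (e : ∀ X ∈ O, g • X = X) : g = 1 :=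
  h.one_of_lines fun l => h.triv h.toOv.sub h.three (fun X hX => e X (mem_inter.1 hX).1) (mem_univ l)

theorem moves (n : g ≠ 1) : ∃ X ∈ O ∩ univ, g • X ≠ X := by
  by_contra! k
  exact n (h.one_of_O fun X hX => k X (by simpa using hX))

theorem ctr_fix (c : Ctr L t A) : t • A = A := by
  obtain ⟨l, l1, -⟩ := ex_line (L := L) A A
  obtain ⟨m, m1, m2, -⟩ := ex_ln A l l
  exact h.fix_pt m2 m1 l1 (c m m1) (c l l1)

theorem axis (c : Ctr L t A) (e : t • l = l) (n : A ∉ l) (hp : p ∈ l) : t • p = p := by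
  obtain ⟨m, m1, m2⟩ := ex_line (L := L) A p
  exact h.fix_pt (fun k => n (k ▸ m1) : m ≠ l) m2 hp (c m m1) e

theorem axes (t1 : t ≠ 1) (c : Ctr L t A) (e : t • l = l) (e' : t • m = m) (n : A ∉ l) (n' : A ∉ m) :
    l = m := by
  by_contra ne
  refine t1 (h.faith t fun p => ?_)
  by_cases k1 : p ∈ m
  · exact h.axis c e' n' k1
  by_cases k2 : p ∈ l
  · exact h.axis c e n k2
  obtain ⟨r, r1, r2⟩ := ex_line (L := L) A p
  obtain ⟨u, u1, u2⟩ := ex_point (P := P) ne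
  have lr : l ≠ r := fun k => n (k ▸ r1)
  obtain ⟨v, v1, v2⟩ := ex_point (P := P) lr
  obtain ⟨q, q1, q2, q3⟩ := ex_pt l u v
  obtain ⟨k, k3, k4⟩ := ex_line (L := L) p q
  obtain ⟨w, w1, w2⟩ := ex_point (P := P) (fun e => k1 (e ▸ k3) : k ≠ m)
  exact h.fix_pt (fun e => q3 (pt_eq lr q1 v1 (e ▸ k4) v2) : k ≠ r) k3 r2
    (h.fix_line (fun e => q2 (pt_eq ne q1 u1 (e ▸ w2) u2) : q ≠ w) k4 w1 (h.axis c e n q1)
      (h.axis c e' n' w2)) (c r r1)

theorem ctr_uniq (t1 : t ≠ 1) (c : Ctr L t A) (c' : Ctr L t A') : A = A' := by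
  by_contra ne
  obtain ⟨l, l1, l2⟩ := ex_line (L := L) A A'
  obtain ⟨m, m1, m2, -⟩ := ex_ln A' l l
  obtain ⟨n, n1, n2, n3⟩ := ex_ln A' l m
  exact n3 (h.axes t1 c (c' n n1) (c' m m1) (fun k => n2 (ln_eq ne k n1 l1 l2))
    fun k => m2 (ln_eq ne k m1 l1 l2))

theorem ctr_conj (c : Ctr L t A) (g : G) : Ctr L (g * t * g⁻¹) (g • A) := fun l hl => by
  rw [mul_smul, mul_smul, c _ ((h.coll g _ _).1 (by rwa [smul_inv_smul])), smul_inv_smul]

theorem ctr_comm (t1 : t ≠ 1) (c : Ctr L t A) (e : g * t = t * g) : g • A = A :=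
  h.ctr_uniq t1 (by simpa [e] using h.ctr_conj c g) c

theorem ctr_nO (t1 : t ≠ 1) (c : Ctr L t A) : A ∉ O := fun k => t1 (h.one_of_O fun X hX =>
  let ⟨l, l1, l2⟩ := ex_line (L := L) A X
  h.toAct.sec h.toOv k hX l1 l2 (h.ctr_fix c) (c l l1))

theorem ctr_sec (t1 : t ≠ 1) (c : Ctr L t A) (hX : X ∈ O) (hY : Y ∈ O) (ne : X ≠ Y) (h1 : A ∈ l)
    (h2 : X ∈ l) (h3 : Y ∈ l) : t • X = Y := by
  refine (h.third hX hY (h.inv t X hX) ne h2 h3 (h.mem_of h2 (c l h1))).resolve_left fun e => ?_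
  obtain ⟨u, u1, -⟩ := h.toOv.tg hX
  obtain ⟨v, v1, -⟩ := h.toOv.tg hY
  have k : ∀ {X Y : P} {u : L}, X ∈ O → Y ∈ O → X ≠ Y → X ∈ l → Y ∈ l → Tg O X u → A ∉ u :=
    fun hX hY ne h2 h3 u1 k => ne (u1.2 _ hY
      (ln_eq (fun e : A = _ => h.ctr_nO t1 c (e ▸ hX)) h1 h2 k u1.1 ▸ h3)).symm
  have := h.axes t1 c (h.fix_tg h.toOv hX u1 e)
    (h.fix_tg h.toOv hY v1 (h.toAct.sec h.toOv hX hY h2 h3 e (c l h1))) (k hX hY ne h2 h3 u1)
    (k hY hX ne.symm h3 h2 v1)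
  exact ne (u1.2 Y hY (this ▸ v1.1)).symm

theorem ctr_eq (t1 : t ≠ 1) (s1 : s ≠ 1) (c : Ctr L t A) (c' : Ctr L s A) : t = s := by
  refine (inv_mul_eq_one.1 (h.one_of_O fun X hX => ?_)).symm
  obtain ⟨l, l1, l2⟩ := ex_line (L := L) A X
  rw [mul_smul, inv_smul_eq_iff]
  by_cases e : t • X = X
  · by_contra k
    exact k ((h.ctr_sec t1 c hX (h.inv s X hX) (fun k' => k (e.trans k')) l1 l2 (h.mem_of l2 (c' l l1))))
  · exact (h.ctr_sec s1 c' hX (h.inv t X hX) (Ne.symm e) l1 l2 (h.mem_of l2 (c l l1))).symm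

/-- Points of the oval with the same image under two homologies. -/
theorem p2 (t1 : t ≠ 1) (s1 : s ≠ 1) (c : Ctr L t A) (c' : Ctr L s A') (ne : t ≠ s) (h1 : A ∈ l)
    (h2 : A' ∈ l) (hX : X ∈ O) (e : t • X = s • X) : X ∈ l := by
  obtain ⟨u, u1, u2⟩ := ex_line (L := L) A X
  obtain ⟨v, v1, v2⟩ := ex_line (L := L) A' X
  have k : u = v := by
    by_cases e' : t • X = X
    · exact h.tg_eq hX ⟨u2, fun Y hY k => by_contra fun n =>
        n ((h.ctr_sec t1 c hX hY (Ne.symm n) u1 u2 k).symm.trans e')⟩ ⟨v2, fun Y hY k => by_contra fun n =>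
        n ((h.ctr_sec s1 c' hX hY (Ne.symm n) v1 v2 k).symm.trans (e.symm.trans e'))⟩
    · exact ln_eq e' (h.mem_of u2 (c u u1)) u2 (e ▸ h.mem_of v2 (c' v v1)) v2
  exact ln_eq (fun k : A = A' => ne (h.ctr_eq t1 s1 c (k ▸ c'))) u1 (k ▸ v1) h1 h2 ▸ u2

theorem p2' (t1 : t ≠ 1) (s1 : s ≠ 1) (c : Ctr L t A) (c' : Ctr L s A') (ne : t ≠ s) {S : Finset P}
    (e : ∀ X ∈ S, X ∈ O ∧ t • X = s • X) : #S ≤ 2 :=
  let ⟨_, l1, l2⟩ := ex_line (L := L) A A'
  h.le_two fun X hX => ⟨(e X hX).1, h.p2 t1 s1 c c' ne l1 l2 (e X hX).1 (e X hX).2⟩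

theorem eq_of_fix (t1 : t ≠ 1) (s1 : s ≠ 1) (c : Ctr L t A) (c' : Ctr L s A') (hX : X ∈ O) (hY : Y ∈ O)
    (ne : X ≠ Y) (e1 : t • X = X) (e2 : t • Y = Y) (e3 : s • X = X) (e4 : s • Y = Y) : t = s := by
  by_contra n
  obtain ⟨l, l1, l2⟩ := ex_line (L := L) A A'
  exact ne (e1.symm.trans (h.ctr_sec t1 c hX hY ne l1 (h.p2 t1 s1 c c' n l1 l2 hX (e1.trans e3.symm))
    (h.p2 t1 s1 c c' n l1 l2 hY (e2.trans e4.symm))))

theorem ctr_le (t1 : t ≠ 1) (c : Ctr L t A) : #(O ∩ fx t univ) ≤ 2 := by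
  by_contra k
  obtain ⟨x, y, z, hx, hy, hz, h1, h2, h3⟩ := two_lt_card_iff.1 (not_le.1 k)
  simp only [mem_inter, mem_fx, mem_univ, true_and] at hx hy hz
  obtain ⟨l, l1, l2⟩ := ex_line (L := L) x y
  obtain ⟨m, m1, m2⟩ := ex_line (L := L) x z
  have := h.axes t1 c (h.fix_line h1 l1 l2 hx.2 hy.2) (h.fix_line h2 m1 m2 hx.2 hz.2)
    (fun k => h1 (hx.2.symm.trans (h.ctr_sec t1 c hx.1 hy.1 h1 k l1 l2)))
    fun k => h2 (hx.2.symm.trans (h.ctr_sec t1 c hx.1 hz.1 h2 k m1 m2))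
  exact (h.third hx.1 hy.1 hz.1 h1 l1 l2 (this ▸ m2)).elim h2.symm h3.symm

omit [Fintype L] in
theorem inv_pts (e : g • l = l) (e' : g • A = A) (x : P) :
    g • x ∈ (pts univ l).erase A ↔ x ∈ (pts univ l).erase A := by
  simp only [mem_erase, mem_pts, mem_univ, true_and]
  exact and_congr (not_congr (by rw [← smul_left_cancel_iff g (x := x), e']))
    (by rw [← h.coll g x l, e])

omit [Fintype P] in
theorem inv_lns (e' : g • A = A) (x : L) : g • x ∈ lns univ A ↔ x ∈ lns univ A := by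
  simp only [mem_lns, mem_univ, true_and]
  rw [← h.coll g A x, e']

/-- An element of prime order not dividing the order fixes a second point on a fixed line. -/
theorem ex_fix {r : ℕ} (hr : r.Prime) (e : g ^ r = 1) (nd : ¬ r ∣ ProjectivePlane.order P L)
    (h1 : g • l = l) (h2 : g • A = A) (h3 : A ∈ l) : ∃ R, R ∈ l ∧ R ≠ A ∧ g • R = R := by
  have := fx_modEq (h.inv_pts h1 h2) hr e
  rw [card_erase_of_mem (mem_pts.2 ⟨mem_univ _, h3⟩), card_pts, Nat.add_sub_cancel] at this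
  obtain ⟨R, hR⟩ := card_pos.1 (Nat.pos_of_ne_zero fun k => nd ((Nat.modEq_zero_iff_dvd).1 (k ▸ this)))
  simp only [mem_fx, mem_erase, mem_pts, mem_univ, true_and] at hR
  exact ⟨R, hR.1.2, hR.1.1, hR.2⟩

theorem off_ctr (t1 : t ≠ 1) (tt : t * t = 1) (c : Ctr L t A) (ne : p ≠ q) (n1 : p ≠ A) (n2 : q ≠ A)
    (e1 : t • p = p) (e2 : t • q = q) (h1 : p ∈ l) (h2 : q ∈ l) : A ∉ l := fun k => by
  obtain ⟨m, m1, m2, -⟩ := ex_ln A l l
  obtain ⟨R, R1, R2, R3⟩ := h.ex_fix Nat.prime_two (by rwa [sq]) h.odd.not_two_dvd_nat (c m m1)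
    (h.ctr_fix c) m1
  have Rl : R ∉ l := fun k' => m2 (ln_eq R2 R1 m1 k' k)
  obtain ⟨u, u1, u2⟩ := ex_line (L := L) R p
  obtain ⟨v, v1, v2⟩ := ex_line (L := L) R q
  have := h.axes t1 c (h.fix_line (fun e : R = p => Rl (e ▸ h1)) u1 u2 R3 e1)
    (h.fix_line (fun e : R = q => Rl (e ▸ h2)) v1 v2 R3 e2) (fun k' => Rl (ln_eq n1 u2 k' h1 k ▸ u1))
    fun k' => Rl (ln_eq n2 v2 k' h2 k ▸ v1)
  exact Rl (ln_eq ne u2 (this ▸ v2) h1 h2 ▸ u1)

/-- An involution has a centre or is a Baer involution. -/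
theorem ctr_or (t1 : t ≠ 1) (tt : t * t = 1) : (∃ A : P, Ctr L t A) ∨
    ∃ d, ProjectivePlane.order P L = d * d ∧ (#(O ∩ fx t univ) ≠ 0 → #(O ∩ fx t univ) = d + 1) := by
  obtain ⟨X, X1, X2⟩ := h.moves t1
  obtain ⟨d, -, -, k1, k2⟩ := h.key (s := t) h.toOv.sub two_le_order (fun l _ => card_pts l)
    (fun l _ => card_lns l) (fun p _ => ⟨mem_univ _, by rw [← mul_smul, tt, one_smul]⟩)
    (fun p _ => ⟨mem_univ _, by rw [← mul_smul, tt, one_smul]⟩) X1 X2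
  refine or_iff_not_imp_left.2 fun k => ⟨d, k1 fun Z _ => by_contra fun k' => k ⟨Z, fun l hl =>
    by_contra fun e => k' ⟨l, mem_univ _, hl, e⟩⟩, fun e => k2 (card_pos.1 (Nat.pos_of_ne_zero e))⟩

/-- For order `3 mod 4` an element of order four fixes only the centre of its square. -/
theorem n3 (h3 : ProjectivePlane.order P L % 4 = 3) (g1 : g * g ≠ 1) (g4 : g * g * (g * g) = 1)
    (c : Ctr L (g * g) A) (e : g • p = p) : p = A := by
  by_contra ne
  have k := four_of_sq (h.inv_lns e) g4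
  obtain ⟨l, l1, l2⟩ := ex_line (L := L) p A
  have k1 : l ∈ fx (g * g) (lns (univ : Finset L) p) := by simp [l1, c l l2]
  have k2 : #((fx (g * g) (lns (univ : Finset L) p)).erase l) ≤ 1 := card_le_one.2 fun u hu v hv => by
    simp only [mem_erase, mem_fx, mem_lns, mem_univ, true_and] at hu hv
    exact h.axes g1 c hu.2.2 hv.2.2 (fun k => hu.1 (ln_eq ne hu.2.1 k l1 l2))
      fun k => hv.1 (ln_eq ne hv.2.1 k l1 l2)
  rw [card_lns, ← card_erase_add_one k1] at k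
  omega

/-- A centralizing involution with a centre lies in a four-group of homologies. -/
theorem e8 {A₁ A₂ A₃ : P} (s1 : s ≠ 1) (t1 : t ≠ 1) (g1 : g ≠ 1) (ss : s * s = 1) (tt : t * t = 1)
    (ne : s ≠ t) (st : s * t = t * s) (c1 : Ctr L s A₁) (c2 : Ctr L t A₂) (c3 : Ctr L (s * t) A₃)
    (c : Ctr L g A) (e1 : s * g = g * s) (e2 : t * g = g * t) : g = s ∨ g = t ∨ g = s * t := by
  have u1 : s * t ≠ 1 := fun e => ne (mul_right_cancel (e.trans tt.symm))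
  by_contra! k
  have n1 : A ≠ A₁ := fun e => k.1 (h.ctr_eq g1 s1 c (e ▸ c1))
  have n2 : A ≠ A₂ := fun e => k.2.1 (h.ctr_eq g1 t1 c (e ▸ c2))
  have n3 : A ≠ A₃ := fun e => k.2.2 (h.ctr_eq g1 u1 c (e ▸ c3))
  have n12 : A₂ ≠ A₁ := fun e => ne (h.ctr_eq s1 t1 c1 (e ▸ c2))
  have n13 : A₃ ≠ A₁ := fun e => t1 (mul_left_cancel ((h.ctr_eq u1 s1 c3 (e ▸ c1)).trans (mul_one s).symm))
  have n23 : A₃ ≠ A₂ := fun e => s1 (mul_right_cancel ((h.ctr_eq u1 t1 c3 (e ▸ c2)).trans (one_mul t).symm))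
  have f1 := h.ctr_comm g1 c e1
  have f2 := h.ctr_comm g1 c e2
  have f3 := h.ctr_comm t1 c2 st
  have f4 := h.ctr_comm u1 c3 (g := s) (by rw [mul_assoc, ← st])
  have f5 := h.ctr_comm u1 c3 (g := t) (by rw [← mul_assoc, ← st])
  obtain ⟨l, l1, l2⟩ := ex_line (L := L) A A₂
  obtain ⟨m, m1, m2⟩ := ex_line (L := L) A A₃
  have := h.axes s1 c1 (h.fix_line n2 l1 l2 f1 f3) (h.fix_line n3 m1 m2 f1 f4)
    (h.off_ctr s1 ss c1 n2 n1 n12 f1 f3 l1 l2) (h.off_ctr s1 ss c1 n3 n1 n13 f1 f4 m1 m2)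
  exact h.off_ctr t1 tt c2 n3 n2 n23 f2 f5 m1 m2 (this ▸ l2)

end St

end Cfsg.Lib.Oval
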