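import Cfsg.Agent.Lib.SR.Eight2

/-! Two-groups whose involutions are divided into "homologies" and "Baer involutions". -/

set_option autoImplicit false

namespace Cfsg.Lib.Oval

open Subgroup Cfsg.Lib.BG Cfsg.Lib.FGS Cfsg.Lib.SR
open scoped Cfsg.Lib.Transfer

variable {S : Type*} [Group S] {H : S → Prop} {a b c d g h k s t u v w x y z β : S}

/-- `x` generates a complement to `⟨s, t⟩` in its centralizer. -/
structure Cy (H : S → Prop) (s t x : S) : Prop where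
  xs : x * s = s * x
  xt : x * t = t * x
  nH : ∀ y ∈ zpowers x, ¬ H y
  cov : ∀ g, g * s = s * g → g * t = t * g →
    g ∈ zpowers x ∨ s * g ∈ zpowers x ∨ t * g ∈ zpowers x ∨ s * t * g ∈ zpowers x

/-- The rules for products of involutions. -/
structure Ax0 (H : S → Prop) : Prop where
  ne : ∀ {t}, H t → t ≠ 1
  sq : ∀ {t}, H t → t * t = 1
  conj : ∀ {t} (g), H t → H (g * t * g⁻¹)
  hh : ∀ {s t}, H s → H t → s ≠ t → s * t = t * s → H (s * t)
  bb : ∀ {s t}, s ≠ 1 → s * s = 1 → t ≠ 1 → t * t = 1 → ¬ H s → ¬ H t → s ≠ t → s * t = t * s → H (s * t)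

structure Ax (H : S → Prop) : Prop extends Ax0 H where
  pg : IsPGroup 2 S
  cyc : ∀ {s t}, H s → H t → s ≠ t → s * t = t * s → ∃ x, Cy H s t x

theorem Ax0.hb (A : Ax0 H) (hs : H s) (t1 : t ≠ 1) (ht : ¬ H t) (c : s * t = t * s) : ¬ H (s * t) :=
  fun k => ht (by
    have := A.hh hs k (fun e => t1 (left_eq_mul.1 e)) (by rw [mul_assoc, ← c])
    rwa [← mul_assoc, A.sq hs, one_mul] at this)

theorem Ax.rank (A : Ax H) (hs : H s) (ht : H t) (ne : s ≠ t) (c : s * t = t * s) (hu : H u)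
    (c1 : u * s = s * u) (c2 : u * t = t * u) : u = s ∨ u = t ∨ u = s * t := by
  obtain ⟨x, hx⟩ := A.cyc hs ht ne c
  by_contra! k
  rcases hx.cov u c1 c2 with e | e | e | e
  · exact hx.nH _ e hu
  · exact hx.nH _ e (A.hh hs hu k.1.symm c1.symm)
  · exact hx.nH _ e (A.hh ht hu k.2.1.symm c2.symm)
  · exact hx.nH _ e (A.hh (A.hh hs ht ne c) hu k.2.2.symm (by rw [mul_assoc, ← c2, ← mul_assoc, ← c1, mul_assoc]))

variable [Finite S]

theorem ex_sq (hS : IsPGroup 2 S) {R : Subgroup S} (h : R ≠ ⊤) : ∃ g ∈ 𝐍(R), g ∉ R ∧ g * g ∈ R := by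
  obtain ⟨g, hg, g1⟩ := SetLike.exists_of_lt (nil_norm_grow (pgroup_nil (hS.to_subgroup ⊤)) h.lt_top)
  obtain ⟨k, hk⟩ := hS g
  have h1 : g ^ 2 ^ k ∈ R := hk ▸ one_mem R
  clear hk
  induction k with
  | zero => exact absurd (by simpa using h1) g1
  | succ k ih =>
    by_cases e : g ^ 2 ^ k ∈ R
    · exact ih e
    · exact ⟨_, pow_mem hg.2 _, e, by rwa [← pow_add, ← mul_two, ← pow_succ]⟩

omit [Finite S] in
theorem ex_inv (hS : IsPGroup 2 S) (h : y ≠ 1) : ∃ n : ℕ, y ^ n ≠ 1 ∧ y ^ n * y ^ n = 1 := by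
  obtain ⟨k, hk⟩ := hS y
  induction k with
  | zero => exact absurd (by simpa using hk) h
  | succ k ih =>
    by_cases e : y ^ 2 ^ k = 1
    · exact ih e
    · exact ⟨_, e, by rwa [← pow_add, ← mul_two, ← pow_succ]⟩

theorem odd_one (hS : IsPGroup 2 S) {k : ℤ} (h : y ^ (2 * k + 1) = 1) : y = 1 :=
  mem_bot.1 (mem_of_odd hS (X := ⊥) (mem_bot.2 h))

theorem cyc_inv (hy : y ∈ zpowers c) (hz : z ∈ zpowers c) (y2 : y * y = 1) (z2 : z * z = 1) (z1 : z ≠ 1) :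
    y = 1 ∨ y = z := by
  classical
  haveI := Fintype.ofFinite (zpowers c)
  by_contra! k
  have := IsCyclic.card_pow_eq_one_le (α := zpowers c) two_pos
  refine absurd (Finset.two_lt_card_iff.2 ⟨1, ⟨y, hy⟩, ⟨z, hz⟩, by simp, ?_, ?_, ?_, ?_, ?_⟩) this.not_gt
  · simpa [sq, Subtype.ext_iff] using y2
  · simpa [sq, Subtype.ext_iff] using z2
  · simpa [Subtype.ext_iff] using k.1.symm
  · simpa [Subtype.ext_iff] using z1.symm
  · simpa [Subtype.ext_iff] using k.2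

theorem Ax.ex_z (A : Ax H) (hs : H s) : ∃ z, H z ∧ ∀ g, g * z = z * g := by
  obtain ⟨h, hh, mx⟩ := Set.exists_max_image {t | H t} (fun t => Nat.card 𝐂[t]) (Set.toFinite _) ⟨s, hs⟩
  refine ⟨h, hh, fun g => mem_cent1.1 ((by_contra fun ne => ?_ : 𝐂[h] = ⊤) ▸ mem_top g)⟩
  obtain ⟨g, g1, g2, g3⟩ := ex_sq A.pg ne
  have k : ∀ y ∈ 𝐂[h], y * (g * h * g⁻¹) = g * h * g⁻¹ * y := fun y hy => by
    have := mem_cent1.1 (conj_mem_of_norm' g1 hy)
    calc _ = g * (g⁻¹ * y * g * h) * g⁻¹ := by group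
      _ = _ := by rw [this]; group
  have c := k h (self_mem_cent1 h)
  refine (mx _ (A.hh hh (A.conj g hh) (fun e => g2 (mem_cent1.2 (by
    rw [eq_mul_inv_iff_mul_eq] at e; exact e.symm))) c)).not_gt (Transfer.card_lt_of_lt ⟨fun y hy => mem_cent1.2 ?_,
      fun e => g2 (e (mem_cent1.2 ?_))⟩)
  · rw [← mul_assoc, mem_cent1.1 hy, mul_assoc, k y hy, ← mul_assoc]
  · calc _ = g * h * g⁻¹ * (g * g * h) * g⁻¹ := by group
      _ = g * h * g⁻¹ * h * g := by rw [mem_cent1.1 g3]; group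
      _ = _ := by rw [← c]

/-- A frame: a central homology `z` and a dihedral group `⟨c, h⟩`. -/
structure Fr (H : S → Prop) (z h c : S) : Prop extends Ax H where
  zH : H z
  zc : ∀ g, g * z = z * g
  hH : H h
  cH : H (c * h)
  hz : h ≠ z
  cz : c * h ≠ z
  c1 : c ≠ 1

namespace Fr

variable (F : Fr H z h c)
include F

omit [Finite S] in
theorem hi : h⁻¹ = h := inv_self (F.sq F.hH)

omit [Finite S] in
theorem hc : h * c * h⁻¹ = c⁻¹ := by
  rw [F.hi, eq_inv_iff_mul_eq_one, ← F.sq F.hH]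
  calc _ = h * (c * h * (c * h)) * h⁻¹ * (h * h) * (h * h)⁻¹ := by group
    _ = _ := by rw [F.sq F.cH, F.sq F.hH]; group

omit [Finite S] in
theorem hk (hk : k ∈ zpowers c) : h * k = k⁻¹ * h := by
  obtain ⟨i, rfl⟩ := hk
  rw [← mul_inv_eq_iff_eq_mul, ← conj_zpow, F.hc, inv_zpow]

omit [Finite S] in
theorem cj (i j : ℤ) : c ^ j * (c ^ i * h) * (c ^ j)⁻¹ = c ^ (2 * j + i) * h := by
  rw [mul_assoc, mul_assoc, F.hk (inv_mem ⟨j, rfl⟩)]; group

omit [Finite S] in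
theorem kH (hk : k ∈ zpowers c) : H (k * h) := by
  obtain ⟨i, rfl⟩ := hk
  obtain ⟨j, rfl | rfl⟩ := Int.even_or_odd' i
  · have := F.conj (c ^ j) (t := c ^ (0 : ℤ) * h) (by simpa using F.hH)
    rw [F.cj] at this
    simpa using this
  · exact F.cj 1 j ▸ F.conj (c ^ j) (t := c ^ (1 : ℤ) * h) (by simpa using F.cH)

omit [Finite S] in
theorem sq_of_comm (hk : k ∈ zpowers c) (e : h * k = k * h) : k * k = 1 := by
  rw [F.hk hk, mul_left_inj] at e
  exact inv_eq_iff_mul_eq_one.1 e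

omit [Finite S] in
theorem rank' (hk : k ∈ zpowers c) (kz : k * h ≠ z) (hu : H u) (e : u * (k * h) = k * h * u) :
    u = z ∨ u = k * h ∨ u = z * (k * h) :=
  F.rank F.zH (F.kH hk) kz.symm (F.zc _).symm hu (F.zc u) e

omit [Finite S] in
theorem zK : z ∈ zpowers c := by
  obtain ⟨n, n1, n2⟩ := ex_inv F.pg F.c1
  have k1 : c ^ n ∈ zpowers c := npow_mem_zpowers c n
  have k2 : h * c ^ n = c ^ n * h := by rw [F.hk k1, inv_self n2]
  have k3 : H (c ^ n) := by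
    have := F.hh (F.kH k1) F.hH (fun e => n1 (mul_eq_right.1 e)) (by rw [← mul_assoc, k2])
    rwa [mul_assoc, F.sq F.hH, mul_one] at this
  have k4 (e : h * c = c * h) : c ^ n = c := by
    have e2 := F.sq_of_comm (mem_zpowers c) e
    obtain ⟨j, rfl | rfl⟩ := Nat.even_or_odd' n
    · exact absurd (by rw [pow_mul, sq, e2, one_pow]) n1
    · rw [pow_succ, pow_mul, sq, e2, one_pow, one_mul]
  have k5 : c ^ n * c = c * c ^ n := by group
  rcases F.rank' (one_mem _) (by simpa using F.hz) k3 (by simpa using k2.symm) with e | e | e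
  · exact e ▸ k1
  · rw [one_mul] at e
    rw [e] at k4 k5
    exact absurd (by rw [← k4 k5, F.sq F.hH]) (F.ne F.cH)
  · rw [one_mul] at e
    rw [e] at k4 k5
    rw [mul_assoc, ← mul_assoc c, F.zc c, mul_assoc, mul_right_inj] at k5
    exact absurd (by rw [← k4 k5, mul_assoc, F.sq F.hH, mul_one]) F.cz

theorem invK (hk : k ∈ zpowers c) (e : k * k = 1) : k = 1 ∨ k = z :=
  cyc_inv hk F.zK e (F.sq F.zH) (F.ne F.zH)

theorem hK : h ∉ zpowers c := fun e => (F.invK e (F.sq F.hH)).elim (F.ne F.hH) F.hz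

theorem khz (hk : k ∈ zpowers c) : k * h ≠ z := fun e =>
  F.hK ((mul_mem_cancel_left hk).1 (e ▸ F.zK))

theorem memD : g ∈ zpowers c ⊔ zpowers h ↔ g ∈ zpowers c ∨ ∃ k ∈ zpowers c, g = k * h := by
  rw [mem_sup_zp (PGroup.mem_normalizer_zpowers (k := -1) (by simpa using F.hc)) (by rw [F.sq F.hH]; exact one_mem _)]
  exact or_congr_right ⟨fun e => ⟨_, e, by group⟩, fun ⟨k, hk, e⟩ => by simpa [e] using hk⟩

theorem khD (hk : k ∈ zpowers c) : k * h ∈ zpowers c ⊔ zpowers h := F.memD.2 (.inr ⟨k, hk, rfl⟩)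

theorem invD (hg : g ∈ zpowers c ⊔ zpowers h) (g1 : g ≠ 1) (g2 : g * g = 1) : H g := by
  rcases F.memD.1 hg with e | ⟨k, hk, rfl⟩
  · exact ((F.invK e g2).resolve_left g1) ▸ F.zH
  · exact F.kH hk

theorem HD (hg : H g) (e : g ∈ zpowers c ⊔ zpowers h) (gz : g ≠ z) : ∃ k ∈ zpowers c, g = k * h :=
  (F.memD.1 e).resolve_left fun e => (F.invK e (F.sq hg)).elim (F.ne hg) gz

theorem cj_ne (g : S) (e : t ≠ z) : g * t * g⁻¹ ≠ z := fun e2 =>
  e (by rw [mul_inv_eq_iff_eq_mul, ← F.zc, mul_right_inj] at e2; exact e2)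

theorem nh (hg : g ∈ 𝐍(zpowers c ⊔ zpowers h)) (hk : k ∈ zpowers c) :
    ∃ l ∈ zpowers c, g * (k * h) * g⁻¹ = l * h :=
  F.HD (F.conj g (F.kH hk)) (conj_mem_of_norm hg (F.khD hk)) (F.cj_ne g (F.khz hk))

theorem nc (hg : g ∈ 𝐍(zpowers c ⊔ zpowers h)) : ∃ s : ℤ, ∀ k ∈ zpowers c, g * k * g⁻¹ = k ^ (2 * s + 1) := by
  obtain ⟨k, hk, e1⟩ := F.nh hg (one_mem _)
  obtain ⟨l, hl, e2⟩ := F.nh hg (mem_zpowers c)
  obtain ⟨i, hi⟩ : g * c * g⁻¹ ∈ zpowers c := by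
    rw [show g * c * g⁻¹ = g * (c * h) * g⁻¹ * (g * (1 * h) * g⁻¹)⁻¹ by group, e1, e2]
    simpa using mul_mem hl (inv_mem hk)
  obtain ⟨s, rfl | rfl⟩ := Int.even_or_odd' i
  · obtain ⟨n, hn⟩ := F.zK
    simp only at hi hn
    refine absurd ?_ (F.ne F.zH)
    calc z = g * c ^ n * g⁻¹ := by rw [hn, F.zc, mul_inv_cancel_right]
      _ = (c ^ n * c ^ n) ^ s := by rw [← conj_zpow, ← hi]; group
      _ = 1 := by rw [hn, F.sq F.zH, one_zpow]
  · refine ⟨s, ?_⟩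
    rintro _ ⟨n, rfl⟩
    simp only at hi ⊢
    rw [← conj_zpow, ← hi]; group

theorem ex_y (c2 : c * c ≠ 1) : ∃ y ∈ zpowers c, y * y = z := by
  obtain ⟨n, n1, n2⟩ := ex_inv F.pg c2
  have k : (c * c) ^ n = c ^ n * c ^ n := by rw [← sq, ← sq, ← pow_mul, ← pow_mul, mul_comm]
  rw [k] at n1 n2
  have m := npow_mem_zpowers c n
  exact ⟨_, m, (F.invK (mul_mem m m) n2).resolve_left n1⟩

omit [Finite S] in
theorem sq_ne (ht : H t) (tz : t ≠ z) (e : y * t = t * y) : y * y ≠ z := fun e2 => by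
  obtain ⟨x, hx⟩ := F.cyc F.zH ht tz.symm (F.zc _).symm
  have k (v : S) (v1 : v * y = y * v) (v2 : v * v = 1) (m : v * y ∈ zpowers x) : False :=
    hx.nH z (by
      have := mul_mem m m
      rwa [mul_assoc, ← mul_assoc y, ← v1, mul_assoc, ← mul_assoc, v2, one_mul, e2] at this) F.zH
  rcases hx.cov y (F.zc y) e with m | m | m | m
  · exact k 1 (by simp) (by simp) (by simpa using m)
  · exact k z (F.zc y).symm (F.sq F.zH) m
  · exact k t e.symm (F.sq ht) m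
  · exact k _ (by rw [mul_assoc, ← e, ← mul_assoc, ← F.zc, mul_assoc])
      (F.sq (F.hh F.zH ht tz.symm (F.zc _).symm)) m

theorem norm_H (mx : ∀ d, H (d * h) → d * h ≠ z → Nat.card (zpowers d) ≤ Nat.card (zpowers c))
    (ht : H t) (hn : t ∈ 𝐍(zpowers c ⊔ zpowers h)) : t ∈ zpowers c ⊔ zpowers h := by
  by_cases tz : t = z
  · exact mem_sup_left (tz ▸ F.zK)
  obtain ⟨_, ⟨i, rfl⟩, e⟩ := F.nh hn (one_mem _)
  simp only [one_mul] at e
  have th : t * h * h = t := by rw [mul_assoc, F.sq F.hH, mul_one]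
  obtain ⟨j, rfl | rfl⟩ := Int.even_or_odd' i
  · obtain ⟨s, hs⟩ := F.nc hn
    obtain ⟨k, hk, e2⟩ : ∃ k ∈ zpowers c, t * (k * h) * t⁻¹ = k * h := by
      by_cases c2 : c * c = 1
      · exact ⟨1, one_mem _, by rw [one_mul, e, zpow_mul, zpow_two, c2, one_zpow, one_mul]⟩
      obtain ⟨r, rfl | rfl⟩ := Int.even_or_odd' s
      · obtain ⟨y, hy, e2⟩ := F.ex_y c2
        refine absurd e2 (F.sq_ne ht tz ?_)
        have := hs y hy
        rw [show 2 * (2 * r) + 1 = 2 * (2 * r) + 1 from rfl, zpow_add_one, zpow_mul, zpow_two, e2, zpow_mul, zpow_two,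
          F.sq F.zH, one_zpow, one_mul, mul_inv_eq_iff_eq_mul] at this
        exact this.symm
      · obtain ⟨m, hm⟩ := mem_of_odd F.pg (mem_zpowers ((c ^ (2 : ℤ)) ^ (2 * r + 1)))
        simp only at hm
        refine ⟨c ^ (-(m * j)), zpow_mem_zpowers _ _, ?_⟩
        calc _ = t * c ^ (-(m * j)) * t⁻¹ * (t * h * t⁻¹) := by group
          _ = c ^ (-(m * j)) * ((((c ^ (2 : ℤ)) ^ (2 * r + 1)) ^ m) ^ j)⁻¹ * c ^ (2 * j) * h := by
            rw [hs _ (zpow_mem_zpowers _ _), e]; group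
          _ = _ := by rw [hm]; group
    rcases F.rank' hk (F.khz hk) ht (mul_inv_eq_iff_eq_mul.1 e2) with e | e | e
    · exact absurd e tz
    · exact e ▸ F.khD hk
    · exact e ▸ mul_mem (mem_sup_left F.zK) (F.khD hk)
  · have k : zpowers c ≤ zpowers (t * h) := zpowers_le.2 (mem_of_odd F.pg (k := j) (by
      have := mul_mem (mem_zpowers (t * h)) (mem_zpowers (t * h))
      rw [inv_self (F.sq ht)] at e
      rwa [← mul_assoc, e, mul_assoc, F.sq F.hH, mul_one] at this))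
    have := eq_of_le_of_card_ge k (mx _ (th.symm ▸ ht) (th.symm ▸ tz))
    exact th ▸ F.khD (this ▸ mem_zpowers _)

theorem normal (mx : ∀ d, H (d * h) → d * h ≠ z → Nat.card (zpowers d) ≤ Nat.card (zpowers c)) :
    𝐍(zpowers c ⊔ zpowers h) = ⊤ := by
  by_contra ne
  obtain ⟨g, g1, g2, -⟩ := ex_sq F.pg ne
  have k (k : S) (hk : k ∈ zpowers c) : g * (k * h) * g⁻¹ ∈ zpowers c ⊔ zpowers h :=
    F.norm_H mx (F.conj g (F.kH hk)) (conj_mem_of_norm g1 (le_normalizer (F.khD hk)))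
  refine g2 (mem_normalizer_fintype fun n hn => ?_)
  rcases F.memD.1 hn with e | ⟨l, hl, rfl⟩
  · have := mul_mem (k n e) (inv_mem (k 1 (one_mem _)))
    rwa [show g * (n * h) * g⁻¹ * (g * (1 * h) * g⁻¹)⁻¹ = g * n * g⁻¹ by group] at this
  · exact k l hl

end Fr

theorem Ax.ex_fr (A : Ax H) (hz : H z) (zc : ∀ g, g * z = z * g) (hh : H h) (ne : h ≠ z) :
    ∃ c, Fr H z h c ∧ 𝐍(zpowers c ⊔ zpowers h) = ⊤ ∧ ∀ t, H t → t ∈ zpowers c ⊔ zpowers h := by
  have hz2 : z ∈ {d | H (d * h) ∧ d * h ≠ z} := ⟨A.hh hz hh ne.symm (zc h).symm, by simpa using A.ne hh⟩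
  obtain ⟨c, hc, mx⟩ := Set.exists_max_image {d | H (d * h) ∧ d * h ≠ z} (fun d => Nat.card (zpowers d))
    (Set.toFinite _) ⟨z, hz2⟩
  have F : Fr H z h c := ⟨A, hz, zc, hh, hc.1, ne, hc.2, fun e => A.ne hz (by
    have := mx z hz2
    rwa [e, zpowers_one_eq_bot, card_bot, card_le_one_iff_eq_bot, zpowers_eq_bot] at this)⟩
  have mx2 := fun d h1 h2 => mx d ⟨h1, h2⟩
  exact ⟨c, F, F.normal mx2, fun t ht => F.norm_H mx2 ht (F.normal mx2 ▸ mem_top t)⟩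

end Cfsg.Lib.Oval
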