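import Cfsg.Agent.Lib.Oval.Two

/-! The structure of a two-group with homologies and Baer involutions. -/

set_option autoImplicit false

namespace Cfsg.Lib.Oval

open Subgroup Cfsg.Lib.BG Cfsg.Lib.FGS Cfsg.Lib.SR
open scoped Cfsg.Lib.Transfer

variable {S Q : Type*} [Group S] [Group Q] {H : S → Prop} {a b c d g h k l s t u v w x y z β : S} {φ : S →* Q}

theorem cyc_quot {T : Subgroup S} [T.Normal] (x : S) (h : ∀ g, ∃ i : ℤ, (x ^ i)⁻¹ * g ∈ T) : IsCyclic (S ⧸ T) :=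
  ⟨⟨(x : S ⧸ T), fun q => QuotientGroup.induction_on q fun g => (h g).imp fun i e => by
    simpa using QuotientGroup.eq.2 e⟩⟩

theorem comm_zp (e : g * k = k * g) (hc : c ∈ zpowers k) : g * c = c * g := by
  obtain ⟨i, rfl⟩ := hc
  exact (Commute.zpow_right e i).eq

variable [Finite S]

theorem gen (hS : IsPGroup 2 S) (c : S) (j : ℤ) : c ∈ zpowers (c ^ (2 * j + 1)) := mem_of_odd hS (mem_zpowers _)

theorem Qa (hS : IsPGroup 2 S) (ha : a * x * a⁻¹ ∈ zpowers x) (hβ : β ∈ zpowers x) (b1 : β ≠ 1) (b2 : β * β = 1)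
    (ne : a * x ≠ x * a) : ∃ l ∈ zpowers x, l⁻¹ * a * l = β * a := by
  obtain ⟨r, hr⟩ := ha
  simp only at hr
  obtain ⟨n, n1, n2⟩ := ex_inv hS (y := x ^ (r - 1)) fun e => ne (by
    rw [zpow_sub_one, hr, mul_inv_eq_one, mul_inv_eq_iff_eq_mul] at e; exact e)
  refine ⟨x ^ n, npow_mem_zpowers _ _, ?_⟩
  rw [← (cyc_inv (pow_mem (zpow_mem_zpowers _ _) _) hβ n2 b2 b1).resolve_left n1]
  calc _ = (x ^ n)⁻¹ * (a * x * a⁻¹) ^ n * a := by rw [conj_pow]; group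
    _ = _ := by rw [← hr]; group

theorem Qb (hS : IsPGroup 2 S) (hb : b * x * b⁻¹ ∈ zpowers x) (b2 : b * b ∈ zpowers x) (hx : x ∉ zpowers b)
    (ne : ∀ l ∈ zpowers x, b * l * (b * l) ≠ 1) : ∃ l ∈ zpowers x, b * b = l * l ∧ l * l * (l * l) = 1 := by
  obtain ⟨r, hr⟩ := hb
  obtain ⟨i, hi⟩ := b2
  simp only at hr hi
  obtain ⟨m, rfl | rfl⟩ := Int.even_or_odd' i
  swap
  · exact absurd (mem_of_odd hS (hi ▸ mul_mem (mem_zpowers b) (mem_zpowers b))) hx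
  have k (n : ℤ) : b * x ^ n * b⁻¹ = x ^ (r * n) := by rw [← conj_zpow, ← hr, zpow_mul]
  have x1 : x ≠ 1 := fun e => hx (e ▸ one_mem _)
  refine ⟨x ^ m, zpow_mem_zpowers _ _, by rw [← hi]; group, ?_⟩
  obtain ⟨u, rfl | rfl⟩ := Int.even_or_odd' r
  · obtain ⟨n, n1, n2⟩ := ex_inv hS x1
    refine absurd ?_ n1
    rw [← zpow_natCast] at n2 ⊢
    calc _ = b⁻¹ * (b * x ^ (n : ℤ) * b⁻¹) * b := by group
      _ = b⁻¹ * (x ^ (n : ℤ) * x ^ (n : ℤ)) ^ u * b := by rw [k]; group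
      _ = 1 := by rw [n2]; group
  obtain ⟨v, rfl | rfl⟩ := Int.even_or_odd' u
  · obtain ⟨n, hn⟩ := gen hS (x ^ (2 : ℤ)) v
    simp only at hn
    refine absurd ?_ (ne _ (zpow_mem_zpowers x (-(n * m))))
    calc _ = b * x ^ (-(n * m)) * b⁻¹ * (b * b) * x ^ (-(n * m)) := by group
      _ = ((((x ^ (2 : ℤ)) ^ (2 * v + 1)) ^ n) ^ m)⁻¹ * x ^ (2 * m) := by rw [k, ← hi]; group
      _ = 1 := by rw [hn]; group
  · refine odd_one hS (k := v) ?_
    calc _ = b * x ^ (2 * m) * b⁻¹ * (x ^ (2 * m))⁻¹ := by rw [k]; group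
      _ = 1 := by rw [hi]; group

structure Fs (H : S → Prop) (z h c x : S) (φ : S →* Q) : Prop extends Fr H z h c where
  cy : Cy H z h x
  ker : ∀ g, φ g = 1 ↔ g ∈ zpowers c ⊔ zpowers h
  all : ∀ t, H t → φ t = 1
  qp : IsPGroup 2 Q

/-- A Baer involution centralizing the even part. -/
structure Bt (H : S → Prop) (x : S) (φ : S →* Q) (β : S) : Prop where
  b1 : β ≠ 1
  b2 : β * β = 1
  nH : ¬ H β
  bL : φ β ∈ zpowers (φ x)
  cE : ∀ g, φ g ∈ zpowers (φ x) → g * β = β * g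

namespace Fs

variable (F : Fs H z h c x φ)
include F

omit [Finite S] in
theorem hn (g : S) : g ∈ 𝐍(zpowers c ⊔ zpowers h) := by
  rw [show zpowers c ⊔ zpowers h = φ.ker from (ext F.ker).symm, normalizer_eq_top]
  exact mem_top g

omit [Finite S] in
theorem φK (hk : k ∈ zpowers c) : φ k = 1 := (F.ker k).2 (mem_sup_left hk)

theorem cases (e : φ d = 1) : d ∈ zpowers c ∨ ∃ k ∈ zpowers c, d = k * h := F.memD.1 ((F.ker d).1 e)

theorem inv (e : φ y = 1) (y1 : y ≠ 1) (y2 : y * y = 1) : H y := F.invD ((F.ker y).1 e) y1 y2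

theorem LD (hl : l ∈ zpowers x) (e : φ l = 1) : l = 1 := by
  by_contra l1
  obtain ⟨n, n1, n2⟩ := ex_inv F.pg l1
  exact F.cy.nH _ (pow_mem hl n) (F.inv (by rw [map_pow, e, one_pow]) n1 n2)

omit [Finite S] F in
theorem φL (hl : l ∈ zpowers x) : φ l ∈ zpowers (φ x) := MonoidHom.map_zpowers φ x ▸ mem_map_of_mem φ hl

omit [Finite S] in
theorem φ1 (e : φ d = 1) : φ d ∈ zpowers (φ x) := e ▸ one_mem _

omit [Finite S] in
theorem cen (e : g * h = h * g) : φ g ∈ zpowers (φ x) := by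
  rcases F.cy.cov g (F.zc g) e with m | m | m | m <;> simpa [F.all _ F.zH, F.all _ F.hH] using φL (φ := φ) m

omit [Finite S] in
theorem ev {j : ℤ} (e : g * h * g⁻¹ = c ^ (2 * j) * h) : φ g ∈ zpowers (φ x) := by
  have := F.cj 0 j
  rw [add_zero, ← e, zpow_zero, one_mul] at this
  have k := F.cen (g := (c ^ j)⁻¹ * g) (by
    calc _ = (c ^ j)⁻¹ * (g * h * g⁻¹) * g := by group
      _ = _ := by rw [← this]; group)
  rwa [map_mul, F.φK (inv_mem (zpow_mem_zpowers _ _)), one_mul] at k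

theorem od (ha : φ a ∉ zpowers (φ x)) (hk : k ∈ zpowers c) :
    ∃ j : ℤ, a * (k * h) * a⁻¹ = c ^ (2 * j + 1) * (k * h) := by
  obtain ⟨_, ⟨i, rfl⟩, e⟩ := F.nh (F.hn a) (one_mem _)
  simp only [one_mul] at e
  obtain ⟨s, hs⟩ := F.nc (F.hn a)
  obtain ⟨j, rfl | rfl⟩ := Int.even_or_odd' i
  · exact absurd (F.ev e) ha
  obtain ⟨n, rfl⟩ := hk
  refine ⟨j + n * s, ?_⟩
  calc _ = a * c ^ n * a⁻¹ * (a * h * a⁻¹) := by group
    _ = _ := by rw [hs _ (zpow_mem_zpowers _ _), e]; group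

theorem od1 (ha : φ a ∉ zpowers (φ x)) : ∃ j : ℤ, a * h * a⁻¹ = c ^ (2 * j + 1) * h := by
  simpa using F.od ha (one_mem _)

theorem nodd (ha : φ a ∉ zpowers (φ x)) (hk : k ∈ zpowers c) : a * (k * h) * a⁻¹ ≠ k * h := fun e => by
  obtain ⟨j, e2⟩ := F.od ha hk
  exact F.c1 (odd_one F.pg (right_eq_mul.1 (e.symm.trans e2)))

theorem od_mul (ha : φ a ∉ zpowers (φ x)) (hb : φ b ∉ zpowers (φ x)) : φ (a * b) ∈ zpowers (φ x) := by
  obtain ⟨i, e⟩ := F.od1 hb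
  obtain ⟨j, e2⟩ := F.od ha (zpow_mem_zpowers c (2 * i + 1))
  refine F.ev (j := i + j + 1) ?_
  calc _ = a * (b * h * b⁻¹) * a⁻¹ := by group
    _ = _ := by rw [e, e2]; group

omit [Finite S] F in
theorem od_ev (ha : φ a ∉ zpowers (φ x)) (hb : φ b ∈ zpowers (φ x)) : φ (a * b) ∉ zpowers (φ x) := by
  rwa [map_mul, mul_mem_cancel_right hb]

theorem conjE (a : S) (hb : φ b ∈ zpowers (φ x)) : φ (a * b * a⁻¹) ∈ zpowers (φ x) := by
  by_cases ha : φ a ∈ zpowers (φ x)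
  · simpa using mul_mem (mul_mem ha hb) (inv_mem ha)
  · exact F.od_mul (od_ev ha hb) (by simpa using ha)

omit [Finite S] F in
theorem dec (e : φ g ∈ zpowers (φ x)) : ∃ d l, φ d = 1 ∧ l ∈ zpowers x ∧ g = d * l := by
  obtain ⟨i, e⟩ := e
  exact ⟨g * (x ^ i)⁻¹, x ^ i, by simp [← e], zpow_mem_zpowers _ _, by group⟩

theorem cD (e1 : β * c = c * β) (e2 : β * h = h * β) (e : φ d = 1) : β * d = d * β := by
  rcases F.cases e with m | ⟨k, hk, rfl⟩
  · exact comm_zp e1 m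
  · rw [← mul_assoc, comm_zp e1 hk, mul_assoc, e2, mul_assoc]

theorem conj_kh (ha : φ a ∉ zpowers (φ x)) (hk : k ∈ zpowers c) : ∃ g, g * h * g⁻¹ = k * h := by
  obtain ⟨i, rfl⟩ := hk
  obtain ⟨j, rfl | rfl⟩ := Int.even_or_odd' i
  · exact ⟨c ^ j, by simpa using F.cj 0 j⟩
  · obtain ⟨m, e⟩ := F.od1 ha
    refine ⟨c ^ (j - m) * a, ?_⟩
    calc _ = c ^ (j - m) * (a * h * a⁻¹) * (c ^ (j - m))⁻¹ := by group
      _ = _ := by rw [e, F.cj]; group

theorem C0 (e1 : β * h = h * β) (b2 : β * β = 1) (hk : k ∈ zpowers c) (e2 : k * β * (k * β) = 1) {j : ℤ}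
    (e3 : k * β * (c ^ (2 * j + 1) * h) * (k * β)⁻¹ = c ^ (2 * j + 1) * h) :
    β * c = c * β ∨ β * h * c = c * (β * h) := by
  have hc := gen F.pg c j
  have hk2 := zpowers_le.2 hc hk
  generalize c ^ (2 * j + 1) = κ at *
  have k1 : β * k * β⁻¹ = k⁻¹ := by rw [inv_self b2]; exact eq_inv_of_mul_eq_one_right (by rw [← e2]; group)
  have k2 : β * κ * β⁻¹ = k⁻¹ * κ * k⁻¹ := by
    calc _ = k⁻¹ * (k * β * κ * (β⁻¹ * h) * h⁻¹) := by group
      _ = k⁻¹ * (k * β * (κ * h) * (k * β)⁻¹) * (k * h⁻¹) := by rw [inv_self b2, e1, mul_inv_rev, inv_self b2]; group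
      _ = k⁻¹ * κ * (h * k) * h⁻¹ := by rw [e3]; group
      _ = _ := by rw [F.hk hk]; group
  obtain ⟨i, rfl⟩ := hk2
  simp only at *
  obtain ⟨m, rfl | rfl⟩ := Int.even_or_odd' i
  · have k3 : κ ^ (2 * m) * κ ^ (2 * m) = 1 := odd_one F.pg (k := -m) (by
      calc _ = (β * κ * β⁻¹) ^ (2 * m) * κ ^ (2 * m) := by rw [k2]; group
        _ = 1 := by rw [conj_zpow, k1]; group)
    refine .inl (comm_zp ?_ hc)
    rw [← mul_inv_eq_iff_eq_mul, k2]
    calc _ = κ * (κ ^ (2 * m) * κ ^ (2 * m))⁻¹ := by group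
      _ = _ := by rw [k3]; group
  · refine .inr (comm_zp ?_ (zpowers_le.2 (gen F.pg κ m) hc))
    calc _ = (β * κ ^ (2 * m + 1) * β⁻¹)⁻¹ * (β * h) := by rw [mul_assoc, F.hk hk]; group
      _ = _ := by rw [k1, inv_inv]

variable [Finite Q]

theorem U (hβ : φ β ∈ zpowers (φ x)) (b1 : β ≠ 1) (b2 : β * β = 1) (nH : ¬ H β) (hy : φ y ∈ zpowers (φ x))
    (e : φ (y * y) = 1) : φ y = 1 ∨ φ y = φ β :=
  cyc_inv hy hβ (map_mul φ y y ▸ e) (by rw [← map_mul, b2, map_one]) fun e => nH (F.inv e b1 b2)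

theorem exC (ha : φ a ∉ zpowers (φ x)) (hβ : β ∈ zpowers x) (b1 : β ≠ 1) (b2 : β * β = 1) :
    ∃ γ, (γ = β ∨ γ = β * h) ∧ Bt H x φ γ := by
  have nH := F.cy.nH β hβ
  have e1 : h * β = β * h := comm_zp F.cy.xt.symm hβ
  have e2 : a * β * a⁻¹ * (a * β * a⁻¹) = 1 := by rw [conj_mul, b2]; group
  have hh := F.sq F.hH
  have b3 : β * h * (β * h) = 1 := by rw [mul_assoc, ← mul_assoc h, e1, mul_assoc, hh, mul_one, b2]
  have e3 : β * h * h = h * (β * h) := by rw [← mul_assoc, e1]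
  obtain ⟨γ, g1, g2⟩ : ∃ γ, (γ = β ∨ γ = β * h) ∧ γ * c = c * γ := by
    obtain ⟨j, e⟩ := F.od1 ha
    have e4 : a * β * a⁻¹ * (c ^ (2 * j + 1) * h) * (a * β * a⁻¹)⁻¹ = c ^ (2 * j + 1) * h := by
      rw [← e, conj_mul, ← e1]; group
    rcases F.U (φL hβ) b1 b2 nH (F.conjE a (φL hβ)) (by rw [e2, map_one]) with e5 | e5
    · exact absurd (by simpa [mul_assoc] using F.conj a⁻¹ (F.inv e5 (by simpa using b1) e2)) nH
    rcases F.cases (d := a * β * a⁻¹ * β⁻¹) (by rw [map_mul, e5, map_inv, mul_inv_cancel]) with m | ⟨k, m, e6⟩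
    · have := F.C0 (j := j) e1.symm b2 m (by simpa using e2) (by simpa using e4)
      exact this.elim (fun e => ⟨_, .inl rfl, e⟩) fun e => ⟨_, .inr rfl, e⟩
    · rw [mul_inv_eq_iff_eq_mul, mul_assoc k, e1] at e6
      rw [e6] at e2 e4
      rcases F.C0 e3 b3 m e2 e4 with e | e
      · exact ⟨_, .inr rfl, e⟩
      · exact ⟨_, .inl rfl, by rwa [mul_assoc β h h, hh, mul_one] at e⟩
  have g3 : γ * h = h * γ := by rcases g1 with rfl | rfl; exacts [e1.symm, e3]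
  have g4 : ¬ H γ := by
    rcases g1 with rfl | rfl
    exacts [nH, e1 ▸ F.hb F.hH b1 nH e1]
  refine ⟨γ, g1, ?_, ?_, g4, F.cen g3, fun g hg => ?_⟩
  · rintro rfl
    rcases g1 with e | e
    exacts [b1 e.symm, nH (by rw [eq_inv_of_mul_eq_one_left e.symm, F.hi]; exact F.hH)]
  · rcases g1 with rfl | rfl; exacts [b2, b3]
  · obtain ⟨d, l, hd, hl, rfl⟩ := dec hg
    have g5 : γ * x = x * γ := by
      have := comm_zp (rfl : x * x = _) hβ
      rcases g1 with rfl | rfl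
      exacts [this.symm, by rw [mul_assoc, ← F.cy.xt, ← mul_assoc, ← this, mul_assoc]]
    rw [mul_assoc, ← comm_zp g5 hl, ← mul_assoc, ← F.cD g2 g3 hd, mul_assoc]

theorem dl (B : Bt H x φ β) (ha : φ a ∉ zpowers (φ x)) : a * β * a⁻¹ = β ∨ a * β * a⁻¹ = z * β := by
  have e2 : a * β * a⁻¹ * (a * β * a⁻¹) = 1 := by rw [conj_mul, B.b2]; group
  rcases F.U B.bL B.b1 B.b2 B.nH (F.conjE a B.bL) (by rw [e2, map_one]) with e5 | e5
  · exact absurd (by simpa [mul_assoc] using F.conj a⁻¹ (F.inv e5 (by simpa using B.b1) e2)) B.nH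
  obtain ⟨d, hd, e⟩ : ∃ d, φ d = 1 ∧ a * β * a⁻¹ = d * β :=
    ⟨a * β * a⁻¹ * β⁻¹, by rw [map_mul, e5, map_inv, mul_inv_cancel], by group⟩
  have d2 : d * d = 1 := by
    rwa [e, mul_assoc, ← mul_assoc β, ← B.cE d (F.φ1 hd), mul_assoc, B.b2, mul_one] at e2
  rcases F.cases hd with m | ⟨k, m, rfl⟩
  · rcases F.invK m d2 with rfl | rfl
    exacts [.inl (by rw [e, one_mul]), .inr e]
  · refine absurd ?_ (F.nodd ha m)
    calc _ = a * (k * h * β) * a⁻¹ * (a * β * a⁻¹)⁻¹ := by group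
      _ = a * a * β * (a * a)⁻¹ * (k * h * β)⁻¹ := by rw [← e]; group
      _ = (k * h)⁻¹ := by rw [B.cE _ (F.od_mul ha ha)]; group
      _ = _ := inv_self d2

omit [Finite Q] in
theorem oinv (ha : φ a ∉ zpowers (φ x)) (a2 : a * a = 1) : a * c * a⁻¹ = c⁻¹ := by
  obtain ⟨j, e⟩ := F.od1 ha
  obtain ⟨i, hi⟩ := gen F.pg c j
  generalize c ^ (2 * j + 1) = κ at *
  have : a * κ * a⁻¹ = κ⁻¹ := by
    calc _ = a * (a * h * a⁻¹) * a⁻¹ * (a * h * a⁻¹)⁻¹ := by nth_rw 1 [e]; group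
      _ = a * a * h * (a * a)⁻¹ * (κ * h)⁻¹ := by nth_rw 2 [e]; group
      _ = _ := by rw [a2]; group
  simp only at hi
  rw [← hi, ← conj_zpow, this, inv_zpow]

omit [Finite Q] in
theorem M1 (B : Bt H x φ β) (c2 : c * c ≠ 1) (ha : φ a ∉ zpowers (φ x)) (e : a * β * a⁻¹ = z * β) (a2 : a * a = 1)
    (hb : φ b = φ (a * β)) : b * b ≠ 1 := fun b2 => by
  obtain ⟨d, hd, rfl⟩ : ∃ d, φ d = 1 ∧ b = a * β * d :=
    ⟨(a * β)⁻¹ * b, by rw [map_mul, map_inv, hb, inv_mul_cancel], by group⟩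
  have k1 := F.oinv ha a2
  have k2 := F.oinv (hb ▸ od_ev ha B.bL) b2
  have k3 : d * c * d⁻¹ = c := by
    calc _ = (a * β)⁻¹ * (a * β * d * c * (a * β * d)⁻¹) * (a * β) := by group
      _ = β⁻¹ * (c * β) := by rw [k2, ← k1]; group
      _ = _ := by rw [B.cE c (F.φ1 (F.φK (mem_zpowers c)))]; group
  rcases F.cases hd with m | ⟨k, m, rfl⟩
  · obtain ⟨i, rfl⟩ := m
    refine F.ne F.zH ?_
    simp only at *
    calc z = z * β * (c ^ i)⁻¹ * (c ^ i * β) * (β * β)⁻¹ := by group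
      _ = a * β * a⁻¹ * (a * c ^ i * a⁻¹) * (a * a) * (β * c ^ i) := by
        rw [e, ← conj_zpow, k1, a2, B.b2, B.cE _ (F.φ1 hd)]; group
      _ = 1 := by rw [← b2]; group
  · refine c2 (F.sq_of_comm (mem_zpowers c) ?_)
    calc _ = k⁻¹ * (k * h * c * (k * h)⁻¹) * k * h := by group
      _ = _ := by rw [k3, mul_assoc k⁻¹, comm_zp rfl m]; group

omit [Finite Q] in
theorem M2 (ha : φ a ∉ zpowers (φ x)) (a2 : φ (a * a) = 1) : ∃ b, φ b = φ a ∧ (b * b = 1 ∨ b * b = z) := by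
  obtain ⟨j, e⟩ := F.od1 ha
  rcases F.cases a2 with m | ⟨k, m, e2⟩
  swap
  · exact absurd (by rw [← e2]; group) (F.nodd ha m)
  have hc := gen F.pg c j
  have hκ := zpow_mem_zpowers c (2 * j + 1)
  obtain ⟨i, hi⟩ := zpowers_le.2 hc m
  generalize c ^ (2 * j + 1) = κ at *
  simp only at hi
  have k1 : a * κ * a⁻¹ = κ ^ i * κ ^ i * κ⁻¹ := by
    calc _ = a * (a * h * a⁻¹) * a⁻¹ * (a * h * a⁻¹)⁻¹ := by nth_rw 1 [e]; group
      _ = a * a * (h * (a * a)⁻¹) * (κ * h)⁻¹ := by nth_rw 2 [e]; group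
      _ = _ := by rw [F.hk (inv_mem m), ← hi]; group
  have k2 : (κ ^ i * κ ^ i * κ⁻¹) ^ i = κ ^ i := by rw [← k1, conj_zpow, hi]; group
  obtain ⟨n, rfl | rfl⟩ := Int.even_or_odd' i
  · refine ⟨a, rfl, F.invK m (odd_one F.pg (k := n - 1) ?_)⟩
    calc _ = (κ ^ (2 * n) * κ ^ (2 * n) * κ⁻¹) ^ (2 * n) * (κ ^ (2 * n))⁻¹ := by rw [← hi]; group
      _ = 1 := by rw [k2]; group
  · have k3 : a * κ = κ * a := comm_zp (by rw [hi, mul_assoc]) (gen F.pg κ n)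
    have k4 : a * h * (a * h) = κ * (a * a)⁻¹ := by
      calc _ = a * h * a⁻¹ * (a * a) * h := by group
        _ = κ * (a * a)⁻¹ * (h * h) := by rw [e, mul_assoc κ, F.hk m]; group
        _ = _ := by rw [F.sq F.hH, mul_one]
    refine ⟨a * h, by rw [map_mul, F.all _ F.hH, mul_one], ?_⟩
    rw [k4]
    refine F.invK (mul_mem hκ (inv_mem m)) ?_
    calc _ = (a * κ * a⁻¹)⁻¹ * κ := by rw [k1, ← hi]; group
      _ = 1 := by rw [k3]; group

omit [Finite Q] in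
theorem M4 (B : Bt H x φ β) (c2 : c * c ≠ 1) (ha : φ a ∉ zpowers (φ x)) (e : a * β * a⁻¹ = z * β)
    (a2 : φ (a * a) = φ β) : a * c * a⁻¹ = z * c ∨ a * c * a⁻¹ = z * c⁻¹ := by
  obtain ⟨d, hd, e2⟩ : ∃ d, φ d = 1 ∧ a * a = d * β :=
    ⟨a * a * β⁻¹, by rw [map_mul, map_inv, a2, mul_inv_cancel], by group⟩
  have zz := F.sq F.zH
  have k0 : a * d * a⁻¹ = z * d := by
    calc _ = a * (d * β) * a⁻¹ * (a * β * a⁻¹)⁻¹ := by group
      _ = a * a * (z * β)⁻¹ := by rw [← e2, e]; group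
      _ = _ := by rw [e2, ← F.zc d, mul_inv_rev, inv_self zz]; group
  rcases F.cases hd with m | ⟨k, m, rfl⟩
  swap
  · obtain ⟨j, e3⟩ := F.od ha m
    rw [e3, mul_left_inj] at k0
    exact absurd (odd_one F.pg (k := j) (by rw [← sq, ← zpow_natCast, ← zpow_mul, mul_comm, zpow_mul, k0]; simp [sq, zz])) c2
  obtain ⟨j, e1⟩ := F.od1 ha
  have hc := gen F.pg c j
  have k9 {ε : ℤ} {k : S} (e : a * k * a⁻¹ = z * k ^ ε) (n : ℤ) :
      a * k ^ (2 * n + 1) * a⁻¹ = z * (k ^ (2 * n + 1)) ^ ε := by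
    rw [← conj_zpow, e, (show Commute z (k ^ ε) from (F.zc _).symm).mul_zpow, zpow_add_one, zpow_mul, zpow_two, zz]
    group
  have k8 {ε : ℤ} {k : S} (e : a * k * a⁻¹ = z * k ^ ε) (hc : c ∈ zpowers k) (hk : k ∈ zpowers c) :
      a * c * a⁻¹ = z * c ^ ε := by
    obtain ⟨i, hi⟩ := hc
    obtain ⟨n, rfl | rfl⟩ := Int.even_or_odd' i
    · obtain ⟨r, rfl⟩ := hk
      refine absurd (odd_one F.pg (k := -(r * n)) ?_) F.c1
      calc _ = ((c ^ r) ^ (2 * n))⁻¹ * c := by group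
        _ = 1 := inv_mul_eq_one.2 hi
    · exact hi ▸ k9 e n
  obtain ⟨i, hi⟩ := zpowers_le.2 hc m
  have hκ := zpow_mem_zpowers c (2 * j + 1)
  generalize c ^ (2 * j + 1) = κ at *
  simp only at hi
  have k1 : a * κ * a⁻¹ = κ ^ i * κ ^ i * κ⁻¹ := by
    calc _ = a * (a * h * a⁻¹) * a⁻¹ * (a * h * a⁻¹)⁻¹ := by nth_rw 1 [e1]; group
      _ = a * a * h * (a * a)⁻¹ * (κ * h)⁻¹ := by nth_rw 2 [e1]; group
      _ = d * (h * d⁻¹) * (κ * h)⁻¹ := by rw [e2, mul_assoc d β, ← B.cE h (F.cen rfl)]; group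
      _ = _ := by rw [F.hk (inv_mem m), ← hi]; group
  have k2 : (κ ^ i * κ ^ i * κ⁻¹) ^ i = z * κ ^ i := by rw [← k1, conj_zpow, hi, k0]
  obtain ⟨n, rfl | rfl⟩ := Int.even_or_odd' i
  · have k3 : (d * d) ^ (2 * (n - 1) + 1) = z := by
      calc _ = (κ ^ (2 * n) * κ ^ (2 * n) * κ⁻¹) ^ (2 * n) * (κ ^ (2 * n))⁻¹ := by rw [← hi]; group
        _ = z := by rw [k2]; group
    have k4 : d * d * (d * d) = 1 := odd_one F.pg (k := n - 1) (by rw [(Commute.refl _).mul_zpow, k3, zz])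
    rcases F.invK (mul_mem m m) k4 with e4 | e4
    · exact absurd (by rw [← k3, e4, one_zpow]) (F.ne F.zH)
    · exact .inr (by simpa using k8 (ε := -1) (by rw [k1, hi, e4, zpow_neg_one]) hc hκ)
  · exact .inl (by simpa using k8 (ε := 1) (by rw [k0, zpow_one]) (zpowers_le.2 (hi ▸ gen F.pg κ n) hc) m)

end Fs

/-- A normal subgroup with cyclic quotient without Baer involutions. -/
def O2 (H : S → Prop) : Prop :=
  ∃ T : Subgroup S, ∃ _ : T.Normal, IsCyclic (S ⧸ T) ∧ ∀ y ∈ T, y ≠ 1 → y * y = 1 → H y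

/-- A central Baer involution. -/
def O3 (H : S → Prop) (z : S) : Prop :=
  ∃ β, β ≠ 1 ∧ β * β = 1 ∧ ¬ H β ∧ (∀ g, g * β = β * g) ∧ (∀ t, H t → (∀ g, g * t = t * g) → t = z) ∧
    ∃ w, ∀ y, y ≠ 1 → y * y = 1 → ¬ H y → y = β ∨ y = z * β ∨ ∃ g, g * w * g⁻¹ = y

namespace Fs

variable (F : Fs H z h c x φ)
include F

theorem o2 (b : S) (e : ∀ g, φ g ∈ zpowers (φ b)) : O2 H :=
  ⟨φ.ker, inferInstance, cyc_quot b fun g => (e g).imp fun i e => by simp [← e], fun _ => F.inv⟩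

theorem o3 (B : Bt H x φ β) (ha : φ a ∉ zpowers (φ x)) (e : a * β * a⁻¹ = β) : O3 H z := by
  have k (g : S) : g * β = β * g := by
    by_cases hg : φ g ∈ zpowers (φ x)
    · exact B.cE g hg
    · have := B.cE _ (F.od_mul hg ha)
      rwa [mul_assoc, mul_inv_eq_iff_eq_mul.1 e, ← mul_assoc, ← mul_assoc, mul_left_inj] at this
  have k2 (t : S) (ht : H t) (tz : t ≠ z) := F.HD ht ((F.ker t).1 (F.all t ht)) tz
  refine ⟨β, B.b1, B.b2, B.nH, k, fun t ht c => by_contra fun tz => ?_, h * β, fun y y1 y2 hy => ?_⟩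
  · obtain ⟨k, m, rfl⟩ := k2 t ht tz
    exact F.nodd ha m (by rw [c, mul_inv_cancel_right])
  by_cases yb : y = β
  · exact .inl yb
  have e2 : y = y * β * β := by rw [mul_assoc, B.b2, mul_one]
  by_cases yz : y * β = z
  · exact .inr (.inl (yz ▸ e2))
  obtain ⟨l, m, e3⟩ := k2 _ (F.bb y1 y2 B.b1 B.b2 hy B.nH yb (k y)) yz
  obtain ⟨g, hg⟩ := F.conj_kh ha m
  exact .inr (.inr ⟨g, by rw [e2, e3, ← hg, mul_assoc _ g⁻¹, k g⁻¹]; group⟩)

variable [Finite Q]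

theorem o2' (B : Bt H x φ β) (c2 : c * c ≠ 1) (hd : ∀ a, φ a ∉ zpowers (φ x) → a * β * a⁻¹ = z * β)
    (ha : φ a ∉ zpowers (φ x)) (a2 : φ (a * a) = 1) : O2 H := by
  have zz := F.sq F.zH
  have k0 (a : S) (ha : φ a ∉ zpowers (φ x)) : a * β * (a * β) = z * (a * a) := by
    calc _ = a * β * a⁻¹ * (a * a * β) := by group
      _ = _ := by rw [hd a ha, B.cE _ (F.od_mul ha ha), mul_assoc, ← mul_assoc β, B.b2, one_mul]
  obtain ⟨y, hy, y2⟩ : ∃ y, φ y ∉ zpowers (φ x) ∧ y * y = 1 := by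
    obtain ⟨b, e, e2 | e2⟩ := F.M2 ha a2
    · exact ⟨b, e ▸ ha, e2⟩
    · exact ⟨b * β, od_ev (e ▸ ha) B.bL, by rw [k0 b (e ▸ ha), e2, zz]⟩
  have k1 (b : S) := F.M1 (b := b) B c2 hy (hd y hy) y2
  have bb : φ β * φ β = 1 := by rw [← map_mul, B.b2, map_one]
  have k2 : φ y * φ x = φ x * φ y := by
    by_contra ne
    obtain ⟨_, ⟨i, rfl⟩, e⟩ := Qa F.qp (by simpa using F.conjE y (mem_zpowers _)) B.bL
      (fun e => B.nH (F.inv e B.b1 B.b2)) bb ne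
    refine k1 ((x ^ i)⁻¹ * y * x ^ i) ?_ ?_
    · have := congrArg φ (hd y hy)
      simp only [map_mul, map_inv, map_zpow, F.all _ F.zH, one_mul, mul_inv_eq_iff_eq_mul] at this e ⊢
      rw [e, this]
    · calc _ = (x ^ i)⁻¹ * (y * y) * x ^ i := by group
        _ = 1 := by rw [y2]; group
  have hy' := od_ev hy B.bL
  have k3 : φ (y * β) * φ x = φ x * φ (y * β) := by
    rw [map_mul, mul_assoc, ← comm_zp rfl B.bL, ← mul_assoc, k2, mul_assoc]
  have k4 : φ (y * β) * φ (y * β) = 1 := by rw [← map_mul, k0 y hy, y2, mul_one, F.all _ F.zH]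
  generalize y * β = a at *
  have k5 (g : S) (hg : φ g ∉ zpowers (φ x)) : φ g * (φ a)⁻¹ ∈ zpowers (φ x) := by
    simpa using F.od_mul hg (b := a⁻¹) (by simpa using hy')
  have k6 (g : S) : φ a * φ g = φ g * φ a := by
    by_cases hg : φ g ∈ zpowers (φ x)
    · exact comm_zp k3 hg
    · have := comm_zp k3 (k5 g hg)
      rwa [inv_mul_cancel_right, ← mul_assoc, mul_inv_eq_iff_eq_mul] at this
  haveI : ((zpowers (φ a)).comap φ).Normal := ⟨fun n hn g => by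
    rw [mem_comap, map_mul, map_mul, comm_zp (k6 g).symm hn, map_inv, mul_inv_cancel_right]; exact hn⟩
  refine ⟨(zpowers (φ a)).comap φ, this, cyc_quot x fun g => ?_, fun b hb b1 b2 => ?_⟩
  · by_cases hg : φ g ∈ zpowers (φ x)
    · exact hg.imp fun i e => by simp [← e]
    · exact (k5 g hg).imp fun i e => by
        simp only [eq_mul_inv_iff_mul_eq] at e
        simp [← e]
  · rcases cyc_inv hb (mem_zpowers _) (by rw [← map_mul, b2, map_one]) k4 (fun e => hy' (F.φ1 e)) with e | e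
    · exact F.inv e b1 b2
    · exact absurd b2 (k1 b e)

theorem out : O2 H ∨ O3 H z := by
  by_cases h1 : ∃ b, ∀ g, φ g ∈ zpowers (φ b)
  · exact .inl (h1.elim F.o2)
  push Not at h1
  obtain ⟨a, ha⟩ := h1 x
  have h2 (b : S) (hb : φ b ∉ zpowers (φ x)) : φ x ∉ zpowers (φ b) := fun e => by
    obtain ⟨g, hg⟩ := h1 b
    have := zpowers_le.2 e (F.od_mul (fun m => hg (zpowers_le.2 e m)) hb)
    exact hg (by rwa [map_mul, mul_mem_cancel_right (mem_zpowers _)] at this)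
  obtain ⟨n, n1, n2⟩ := ex_inv F.pg (y := x) fun e => h2 a ha (by rw [e, map_one]; exact one_mem _)
  have hγ := npow_mem_zpowers x n
  generalize x ^ n = γ at *
  obtain ⟨β, b0, B⟩ := F.exC ha hγ n1 n2
  by_cases h3 : ∃ a, φ a ∉ zpowers (φ x) ∧ a * β * a⁻¹ = β
  · exact .inr (h3.elim fun a e => F.o3 B e.1 e.2)
  have hd (a : S) (ha : φ a ∉ zpowers (φ x)) := (F.dl B ha).resolve_left fun e => h3 ⟨a, ha, e⟩
  have hh := F.sq F.hH
  have zz := F.sq F.zH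
  have bh := B.cE h (F.cen rfl)
  by_cases c2 : c * c = 1
  · have cz := (F.invK (mem_zpowers c) c2).resolve_left F.c1
    obtain ⟨j, e⟩ := F.od1 ha
    refine .inr (F.o3 (β := h * β) ⟨fun e => B.nH ?_, ?_, F.hb F.hH B.b1 B.nH bh, ?_, fun g hg => ?_⟩ ha ?_)
    · rw [eq_inv_of_mul_eq_one_right e, F.hi]; exact F.hH
    · rw [mul_assoc, ← mul_assoc β, ← bh, mul_assoc, B.b2, mul_one, hh]
    · simpa [F.all _ F.hH] using B.bL
    · obtain ⟨d, l, hd, hl, rfl⟩ := dec hg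
      have := F.cD (β := h) (by rw [cz, F.zc]) rfl hd
      rw [← mul_assoc, mul_assoc d, ← comm_zp F.cy.xt.symm hl, ← mul_assoc, ← this, mul_assoc, mul_assoc, ← mul_assoc d,
        B.cE _ hg, ← mul_assoc]
    · rw [← conj_mul, e, hd a ha, zpow_add_one, zpow_mul, zpow_two, c2, one_zpow, one_mul, cz, ← F.zc h, mul_assoc,
        ← mul_assoc z, zz, one_mul]
  by_cases h4 : ∃ a, φ a ∉ zpowers (φ x) ∧ φ (a * a) = 1
  · exact .inl (h4.elim fun a e => F.o2' B c2 hd e.1 e.2)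
  exfalso
  have gb : φ β = φ γ := by rcases b0 with rfl | rfl <;> simp [F.all _ F.hH]
  have h5 (b : S) (hb : φ b ∉ zpowers (φ x)) : ∃ l ∈ zpowers x, φ (b * b) = φ β ∧ l * l = γ := by
    obtain ⟨_, ⟨i, rfl⟩, e1, e2⟩ := Qb F.qp (b := φ b) (by simpa using F.conjE b (mem_zpowers _))
      (map_mul φ b b ▸ F.od_mul hb hb) (h2 b hb) (by
        rintro _ ⟨i, rfl⟩ e
        exact h4 ⟨b * x ^ i, od_ev hb (φL (zpow_mem_zpowers _ _)), by simpa using e⟩)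
    have m := zpow_mem_zpowers x i
    have e3 : φ (b * b) = φ (x ^ i * x ^ i) := by simpa using e1
    rcases cyc_inv (mul_mem m m) hγ (F.LD (mul_mem (mul_mem m m) (mul_mem m m)) (by simpa using e2)) n2 n1 with e | e
    · exact absurd ⟨b, hb, by rw [e3, e, map_one]⟩ h4
    · exact ⟨_, m, by rw [e3, e, gb], e⟩
  have h6 (b : S) (hb : φ b ∉ zpowers (φ x)) := F.M4 B c2 hb (hd b hb) (h5 b hb).choose_spec.2.1
  obtain ⟨l, hl, -, l2⟩ := h5 a ha
  have lh := comm_zp F.cy.xt.symm hl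
  have h7 : l * c * l⁻¹ = c ∨ l * c * l⁻¹ = c⁻¹ := by
    have k (w : S) (e : a * l * c * (a * l)⁻¹ = a * w * a⁻¹) : l * c * l⁻¹ = w := by
      calc _ = a⁻¹ * (a * l * c * (a * l)⁻¹) * a := by group
        _ = _ := by rw [e]; group
    have k2 (w : S) : (z * w)⁻¹ = z * w⁻¹ := by rw [mul_inv_rev, inv_self zz, F.zc]
    rcases h6 a ha with e | e <;> rcases h6 _ (od_ev ha (φL hl)) with e2 | e2
    · exact .inl (k _ (e2.trans e.symm))
    · exact .inr (k _ (by rw [e2, ← k2, ← e]; group))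
    · exact .inr (k _ (by rw [e2, ← inv_inv c, ← k2, ← e]; group))
    · exact .inl (k _ (e2.trans e.symm))
  obtain ⟨m, m1, m2, m3⟩ : ∃ m, m * c = c * m ∧ m * h = h * m ∧ m * m = γ := by
    rcases h7 with e | e
    · exact ⟨l, mul_inv_eq_iff_eq_mul.1 e, lh.symm, l2⟩
    · refine ⟨l * h, ?_, by rw [← mul_assoc, lh], by rw [mul_assoc, ← mul_assoc h, lh, mul_assoc, hh, mul_one, l2]⟩
      calc _ = (l * c * l⁻¹)⁻¹ * (l * h) := by rw [mul_assoc, F.hk (mem_zpowers c)]; group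
        _ = _ := by rw [e, inv_inv]
  have gc : γ * c = c * γ := by rw [← m3, mul_assoc, m1, ← mul_assoc, m1, mul_assoc]
  rcases b0 with rfl | rfl
  swap
  · have := B.cE c (F.φ1 (F.φK (mem_zpowers c)))
    rw [← mul_assoc, ← gc, mul_assoc, mul_assoc, mul_right_inj] at this
    exact c2 (F.sq_of_comm (mem_zpowers c) this.symm)
  have k1 : a * m * a⁻¹ * h = h * (a * m * a⁻¹) := by
    have := F.cD m1 m2 (d := a⁻¹ * h * a) (by simp [F.all _ F.hH])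
    calc _ = a * (m * (a⁻¹ * h * a)) * a⁻¹ := by group
      _ = _ := by rw [this]; group
  have k2 : a * m * a⁻¹ * (a * m * a⁻¹) = z * β := by rw [conj_mul, m3, hd a ha]
  generalize a * m * a⁻¹ = y at *
  have k (v : S) (v1 : v * y = y * v) (v2 : v * v = 1) (m : v * y ∈ zpowers x) : False :=
    F.cy.nH z (by
      have := mul_mem m m
      rwa [mul_assoc, ← mul_assoc y, ← v1, mul_assoc, ← mul_assoc, v2, one_mul, k2, mul_mem_cancel_right hγ] at this) F.zH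
  rcases F.cy.cov y (F.zc y) k1 with m | m | m | m
  · exact k 1 (by simp) (by simp) (by simpa using m)
  · exact k z (F.zc y).symm zz m
  · exact k h k1.symm hh m
  · exact k _ (by rw [mul_assoc, ← k1, ← mul_assoc, ← F.zc, mul_assoc]) (F.sq (F.kH F.zK)) m

end Fs

theorem Ax.out (A : Ax H) (hz : H z) (zc : ∀ g, g * z = z * g) (hh : H h) (ne : h ≠ z) : O2 H ∨ O3 H z := by
  obtain ⟨c, F, nm, all⟩ := A.ex_fr hz zc hh ne
  obtain ⟨x, hx⟩ := A.cyc hz hh ne.symm (zc h).symm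
  haveI := normalizer_eq_top_iff.1 nm
  exact Fs.out (φ := QuotientGroup.mk' (zpowers c ⊔ zpowers h))
    ⟨F, hx, fun g => QuotientGroup.eq_one_iff g, fun t ht => (QuotientGroup.eq_one_iff t).2 (all t ht), A.pg.to_quotient _⟩

end Cfsg.Lib.Oval
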